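import Mathlib

set_option autoImplicit false
set_option linter.style.haveILetI false

namespace Cfsg.Agent.ClassicalMax

variable {F V : Type*} [Field F] [AddCommGroup V] [Module F V] {Q : QuadraticForm F V}

/-- The isometries of an anisotropic form realise every configuration with the same Gram data. -/
lemma exists_isometry_of_gram (hQ : Q.Anisotropic) : ∀ l : List (V × V),
    (∀ a ∈ l, Q a.1 = Q a.2) → (∀ a ∈ l, ∀ b ∈ l, Q (a.1 - b.1) = Q (a.2 - b.2)) →
    ∃ φ : Q.IsometryEquiv Q, ∀ a ∈ l, φ a.1 = a.2 := by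
  intro l
  induction l with
  | nil => exact fun _ _ => ⟨QuadraticMap.IsometryEquiv.refl Q, by simp⟩
  | cons a l ih =>
    intro h1 h2
    obtain ⟨φ, hφ⟩ := ih (fun b hb => h1 b (List.mem_cons_of_mem _ hb))
      (fun b hb c hc => h2 b (List.mem_cons_of_mem _ hb) c (List.mem_cons_of_mem _ hc))
    by_cases hd : φ a.1 = a.2
    · exact ⟨φ, List.forall_mem_cons.mpr ⟨hd, hφ⟩⟩
    obtain ⟨d, hd_def⟩ : ∃ d, d = φ a.1 - a.2 := ⟨_, rfl⟩
    have hd0 : d ≠ 0 := hd_def ▸ sub_ne_zero.mpr hd
    have hQd : Q d ≠ 0 := fun h => hd0 (hQ d h)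
    let B := QuadraticMap.polarBilin Q
    have hB : ∀ x y, B x y = QuadraticMap.polar Q x y := fun x y => rfl
    have hBdd : B d d = 2 * Q d := by
      rw [hB, QuadraticMap.polar_self]
      simp [two_mul]
    have haux : ∀ x y, B x y = Q x + Q y - Q (x - y) := by
      intro x y
      have h3 := QuadraticMap.map_add Q x (-y)
      rw [← sub_eq_add_neg, QuadraticMap.map_neg, QuadraticMap.polar_neg_right] at h3
      rw [hB, h3]; ring
    let f : V →ₗ[F] V := LinearMap.id - ((Q d)⁻¹ • (B d)).smulRight d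
    have hf : ∀ x, f x = x - ((Q d)⁻¹ * B d x) • d := fun x => rfl
    have hBsymm : ∀ x y, B x y = B y x := fun x y => QuadraticMap.polar_comm Q x y
    have hinv : ∀ x, f (f x) = x := by
      intro x
      rw [hf, hf, (B d).map_sub, (B d).map_smul, hBdd, smul_eq_mul, sub_sub, ← add_smul]
      have : ((Q d)⁻¹ * B d x + (Q d)⁻¹ * (B d x - (Q d)⁻¹ * B d x * (2 * Q d))) = 0 := by
        field_simp; ring
      rw [this, zero_smul, sub_zero]
    have hQf : ∀ x, Q (f x) = Q x := by
      intro x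
      rw [hf, sub_eq_add_neg, ← neg_smul, QuadraticMap.map_add (⇑Q), QuadraticMap.map_smul,
        QuadraticMap.polar_smul_right, ← hB, hBsymm x d, smul_eq_mul, smul_eq_mul]
      field_simp; ring
    let ψ : Q.IsometryEquiv Q :=
      { ({ f with invFun := f, left_inv := hinv, right_inv := hinv } : V ≃ₗ[F] V) with map_app' := hQf }
    have hψ : ∀ x, ψ x = f x := fun x => rfl
    refine ⟨φ.trans ψ, List.forall_mem_cons.mpr ⟨?_, ?_⟩⟩
    · show ψ (φ a.1) = a.2
      rw [hψ, hf]
      have : B d (φ a.1) = Q d := by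
        rw [haux, φ.map_app, h1 a (List.mem_cons_self), hd_def]
        have : φ a.1 - a.2 - φ a.1 = -a.2 := by abel
        rw [this, QuadraticMap.map_neg]; ring
      rw [this, inv_mul_cancel₀ hQd, one_smul, hd_def, sub_sub_cancel]
    · intro b hb
      show ψ (φ b.1) = b.2
      rw [hψ, hf]
      have hz : B d (φ b.1) = 0 := by
        rw [hd_def, LinearMap.map_sub₂, haux, haux, hφ b hb, φ.map_app,
          h1 a (List.mem_cons_self)]
        have h4 := h2 a (List.mem_cons_self) b (List.mem_cons_of_mem _ hb)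
        have h5 : Q (φ a.1 - b.2) = Q (a.1 - b.1) := by
          rw [← hφ b hb]
          show Q (φ.toLinearEquiv a.1 - φ.toLinearEquiv b.1) = _
          rw [← map_sub]
          exact φ.map_app _
        rw [h5, h4]; ring
      rw [hz, mul_zero, zero_smul, sub_zero, hφ b hb]

/-- Affine isometry groups of anisotropic forms act in a binary way. -/
theorem anisotropic_binary (hQ : Q.Anisotropic) (n : ℕ) (hn : 2 ≤ n) (u u' : Fin n → V)
    (h2 : ∀ i j : Fin n, i ≠ j → ∃ (φ : Q.IsometryEquiv Q) (c : V), φ (u i) + c = u' i ∧ φ (u j) + c = u' j) :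
    ∃ (φ : Q.IsometryEquiv Q) (c : V), ∀ i, φ (u i) + c = u' i := by
  let i₀ : Fin n := ⟨0, by omega⟩
  have key : ∀ i j : Fin n, Q (u i - u j) = Q (u' i - u' j) := by
    intro i j
    by_cases hij : i = j
    · subst hij; simp
    obtain ⟨φ, c, h₁, h₂⟩ := h2 i j hij
    rw [← h₁, ← h₂, add_sub_add_right_eq_sub]
    show _ = Q (φ.toLinearEquiv (u i) - φ.toLinearEquiv (u j))
    rw [← map_sub]
    exact (φ.map_app _).symm
  obtain ⟨φ, hφ⟩ := exists_isometry_of_gram hQ
    ((List.finRange n).map fun i => (u i - u i₀, u' i - u' i₀))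
    (by simp [key]) (by simp [key, sub_sub_sub_cancel_right])
  refine ⟨φ, u' i₀ - φ (u i₀), fun i => ?_⟩
  have := hφ _ (List.mem_map.mpr ⟨i, List.mem_finRange i, rfl⟩)
  change φ.toLinearEquiv (u i - u i₀) = _ at this
  rw [map_sub] at this
  show φ.toLinearEquiv (u i) + (u' i₀ - φ.toLinearEquiv (u i₀)) = u' i
  have e : φ.toLinearEquiv (u i) = φ.toLinearEquiv (u i₀) + (u' i - u' i₀) := by
    rw [← sub_eq_iff_eq_add']; exact this
  rw [e]; abel

end Cfsg.Agent.ClassicalMax
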