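import Cfsg.Agent.Spec.TorusTwo
import Cfsg.Agent.Spec.PSLTwoClass
import Cfsg.Agent.CharTwo.SLPairNormalizer
import Cfsg.Agent.RootSub.SL2Gen.Basic

/-!
# Binary coset actions: the fixed-point criterion

For `x : G` let `fixK H x` be the subgroup of elements fixing every point of `G ⧸ H` fixed by `x`.
If the action is binary then for all `x, y` some `g ∈ fixK H x ⊓ fixK H y` has
`g⁻¹ * x ∈ fixK H (y⁻¹ * x)`.

Also the upper triangular coordinates of `PSL(2, F)`.
-/

set_option autoImplicit false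
set_option linter.unusedSectionVars false

namespace Cfsg.Agent.ClassicalMax.Binary

section generic

variable {G : Type*} [Group G]

/-- The hypothesis "binary" in the form used by the statement. -/
def IsBin (H : Subgroup G) : Prop :=
  ∀ (n : ℕ) (I J : Fin n → G ⧸ H), 2 ≤ n →
    (∀ i j : Fin n, i ≠ j → ∃ g : G, g • I i = J i ∧ g • I j = J j) → ∃ g : G, ∀ i, g • I i = J i

/-- Elements fixing all points fixed by `x`. -/
def fixK (H : Subgroup G) (x : G) : Subgroup G where
  carrier := {g | ∀ p : G ⧸ H, x • p = p → g • p = p}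
  one_mem' := fun p _ => one_smul G p
  mul_mem' := fun {a b} ha hb p hp => by rw [mul_smul, hb p hp, ha p hp]
  inv_mem' := fun {a} ha p hp => inv_smul_eq_iff.2 (ha p hp).symm

theorem smul_mk_eq_iff {H : Subgroup G} {g a : G} :
    g • (QuotientGroup.mk a : G ⧸ H) = QuotientGroup.mk a ↔ a⁻¹ * g * a ∈ H := by
  change (QuotientGroup.mk (g * a) : G ⧸ H) = QuotientGroup.mk a ↔ _
  rw [eq_comm, QuotientGroup.eq, mul_assoc]

theorem mem_fixK {H : Subgroup G} {x g : G} :
    g ∈ fixK H x ↔ ∀ a : G, a⁻¹ * x * a ∈ H → a⁻¹ * g * a ∈ H := by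
  constructor
  · intro h a ha
    exact smul_mk_eq_iff.1 (h _ (smul_mk_eq_iff.2 ha))
  · intro h p hp
    obtain ⟨a, rfl⟩ := QuotientGroup.mk_surjective p
    exact smul_mk_eq_iff.2 (h a (smul_mk_eq_iff.1 hp))

theorem self_mem_fixK (H : Subgroup G) (x : G) : x ∈ fixK H x := fun _ h => h

theorem fixK_mono {H : Subgroup G} {x y : G} (h : y ∈ fixK H x) : fixK H y ≤ fixK H x :=
  fun _ hg p hp => hg p (h p hp)

theorem conj_mem_fixK {H : Subgroup G} {x g : G} (a : G) (hg : g ∈ fixK H x) :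
    a * g * a⁻¹ ∈ fixK H (a * x * a⁻¹) := by
  rw [mem_fixK] at hg ⊢
  intro b hb
  have e : ∀ u : G, (a⁻¹ * b)⁻¹ * u * (a⁻¹ * b) = b⁻¹ * (a * u * a⁻¹) * b := fun u => by group
  rw [← e] at hb ⊢
  exact hg _ hb

theorem conj_mem_fixK_of_comm {H : Subgroup G} {x g c : G} (hc : c * x = x * c)
    (hg : g ∈ fixK H x) : c * g * c⁻¹ ∈ fixK H x := by
  have h := conj_mem_fixK c hg
  rwa [show c * x * c⁻¹ = x by rw [hc, mul_inv_cancel_right]] at h

theorem conj_mem_of_fixK {H : Subgroup G} {x g a : G} (ha : a⁻¹ * x * a ∈ H) (hg : g ∈ fixK H x) :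
    a⁻¹ * g * a ∈ H := mem_fixK.1 hg a ha

/-- The fixed-point criterion. -/
theorem binary_triple [Finite G] {H : Subgroup G} (hb : IsBin H) (x y : G) :
    ∃ g : G, g ∈ fixK H x ∧ g ∈ fixK H y ∧ g⁻¹ * x ∈ fixK H (y⁻¹ * x) := by
  classical
  let U := {p : G ⧸ H // x • p = p ∨ y • p = p ∨ (y⁻¹ * x) • p = p}
  let σ : U → G ⧸ H := fun u => if x • u.1 = u.1 ∨ y • u.1 = u.1 then u.1 else x • u.1
  have pair : ∀ a b : U, ∃ g : G, g • a.1 = σ a ∧ g • b.1 = σ b := by
    intro a b
    have hx : ∀ u : U, x • u.1 = u.1 → σ u = u.1 := fun u h => if_pos (Or.inl h)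
    have hy : ∀ u : U, y • u.1 = u.1 → σ u = u.1 := fun u h => if_pos (Or.inr h)
    have hw : ∀ u : U, ¬ (x • u.1 = u.1 ∨ y • u.1 = u.1) → σ u = x • u.1 ∧ y • u.1 = x • u.1 := by
      intro u h
      refine ⟨if_neg h, ?_⟩
      have h' : (y⁻¹ * x) • u.1 = u.1 := by
        rcases u.2 with h1 | h1 | h1
        · exact absurd (Or.inl h1) h
        · exact absurd (Or.inr h1) h
        · exact h1
      rw [mul_smul, inv_smul_eq_iff] at h'
      exact h'.symm
    by_cases ha : x • a.1 = a.1 ∨ y • a.1 = a.1 <;> by_cases hb' : x • b.1 = b.1 ∨ y • b.1 = b.1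
    · exact ⟨1, by rw [one_smul]; exact (if_pos ha).symm, by rw [one_smul]; exact (if_pos hb').symm⟩
    · rcases ha with ha | ha
      · exact ⟨x, by rw [hx a ha, ha], (hw b hb').1.symm⟩
      · exact ⟨y, by rw [hy a ha, ha], by rw [(hw b hb').1, (hw b hb').2]⟩
    · rcases hb' with hb' | hb'
      · exact ⟨x, (hw a ha).1.symm, by rw [hx b hb', hb']⟩
      · exact ⟨y, by rw [(hw a ha).1, (hw a ha).2], by rw [hy b hb', hb']⟩
    · exact ⟨x, (hw a ha).1.symm, (hw b hb').1.symm⟩
  rcases isEmpty_or_nonempty U with hU | hU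
  · exact ⟨1, one_mem _, one_mem _, fun p hp => (hU.false ⟨p, Or.inr (Or.inr hp)⟩).elim⟩
  · haveI : Finite (G ⧸ H) := Finite.of_surjective _ QuotientGroup.mk_surjective
    haveI : Fintype U := Fintype.ofFinite U
    let e : U ≃ Fin (Fintype.card U) := Fintype.equivFin U
    let u0 : U := hU.some
    let enum : Fin (Fintype.card U + 1) → U := Fin.cons u0 (fun i => e.symm i)
    obtain ⟨g, hg⟩ := hb (Fintype.card U + 1) (fun i => (enum i).1) (fun i => σ (enum i))
      (by have := Fintype.card_pos (α := U); omega) (fun i j _ => pair _ _)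
    have hg' : ∀ u : U, g • u.1 = σ u := fun u => by
      have := hg (Fin.succ (e u))
      simpa [enum] using this
    refine ⟨g, fun p hp => ?_, fun p hp => ?_, fun p hp => ?_⟩
    · rw [hg' ⟨p, Or.inl hp⟩]; exact if_pos (Or.inl hp)
    · rw [hg' ⟨p, Or.inr (Or.inl hp)⟩]; exact if_pos (Or.inr hp)
    · have h := hg' ⟨p, Or.inr (Or.inr hp)⟩
      rw [mul_smul, inv_smul_eq_iff, h]
      by_cases hc : x • p = p ∨ y • p = p
      · rw [show σ ⟨p, Or.inr (Or.inr hp)⟩ = p from if_pos hc]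
        rcases hc with hc | hc
        · exact hc
        · rw [mul_smul, inv_smul_eq_iff] at hp
          rw [hp, hc]
      · exact (if_neg hc).symm

/-- No binary action when `x`, `y`, `y⁻¹ x` do not commute but have small `fixK`. -/
theorem triple_contra [Finite G] {H : Subgroup G} (hb : IsBin H) {x y : G}
    (hx : ∀ g ∈ fixK H x, g * x = x * g) (hy : ∀ g ∈ fixK H y, g * y = y * g)
    (hw : ∀ g ∈ fixK H (y⁻¹ * x), g * (y⁻¹ * x) = (y⁻¹ * x) * g)
    (hCA : ∀ g : G, g ≠ 1 → g * x = x * g → g * y = y * g → x * y = y * x)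
    (hxy : x * y ≠ y * x) : False := by
  obtain ⟨g, hgx, hgy, hgw⟩ := binary_triple hb x y
  have hg1 : g = 1 := by
    by_contra hne
    exact hxy (hCA g hne (hx g hgx) (hy g hgy))
  subst hg1
  rw [inv_one, one_mul] at hgw
  have h := hw x hgw
  apply hxy
  have h1 : x * y⁻¹ = y⁻¹ * x := by
    have h2 : x * y⁻¹ * x = y⁻¹ * x * x := by rw [mul_assoc, h]
    exact mul_right_cancel h2
  calc x * y = y * (y⁻¹ * x) * y := by group
    _ = y * (x * y⁻¹) * y := by rw [h1]
    _ = y * x := by group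

/-- Binarity only depends on the conjugacy class of the subgroup. -/
theorem isBin_conj {H : Subgroup G} (hb : IsBin H) (a : G) :
    IsBin (H.map (MulAut.conj a).toMonoidHom) := by
  set K := H.map (MulAut.conj a).toMonoidHom
  have hK : ∀ u v : G, (QuotientGroup.mk u : G ⧸ K) = QuotientGroup.mk v ↔
      (QuotientGroup.mk (u * a) : G ⧸ H) = QuotientGroup.mk (v * a) := by
    intro u v
    rw [QuotientGroup.eq, QuotientGroup.eq]
    constructor
    · rintro ⟨h, hh, e⟩
      have e' : a * h * a⁻¹ = u⁻¹ * v := e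
      rw [show (u * a)⁻¹ * (v * a) = a⁻¹ * (u⁻¹ * v) * a by group, ← e',
        show a⁻¹ * (a * h * a⁻¹) * a = h by group]
      exact hh
    · intro h
      exact ⟨_, h, show a * ((u * a)⁻¹ * (v * a)) * a⁻¹ = u⁻¹ * v by group⟩
  intro n I J hn hp
  choose i' hi using fun k => QuotientGroup.mk_surjective (I k)
  choose j' hj using fun k => QuotientGroup.mk_surjective (J k)
  have key : ∀ (g : G) (k : Fin n), g • I k = J k ↔
      g • (QuotientGroup.mk (i' k * a) : G ⧸ H) = QuotientGroup.mk (j' k * a) := by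
    intro g k
    rw [← hi, ← hj]
    change (QuotientGroup.mk (g * i' k) : G ⧸ K) = _ ↔
      (QuotientGroup.mk (g * (i' k * a)) : G ⧸ H) = _
    rw [hK, mul_assoc]
  obtain ⟨g, hg⟩ := hb n (fun k => QuotientGroup.mk (i' k * a)) (fun k => QuotientGroup.mk (j' k * a)) hn
    (fun i j hij => by
      obtain ⟨g, h1, h2⟩ := hp i j hij
      exact ⟨g, (key g i).1 h1, (key g j).1 h2⟩)
  exact ⟨g, fun k => (key g k).2 (hg k)⟩

end generic

section psl

open Matrix Cfsg.Agent.Spec.Two Cfsg.Agent.RootSub.SL2Gen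
open scoped MatrixGroups

variable {F : Type*} [Field F]

local notation "L₂" => Matrix.ProjectiveSpecialLinearGroup (Fin 2) F
local notation "M₂" => Matrix (Fin 2) (Fin 2) F

/-- Commuting with a nonscalar element of trace `≠ 0` is a transitive relation. -/
theorem commute_of_commute [Fintype F] {Z : SL(2, F)} (hns : π Z ≠ 1)
    (hc : (Z : M₂).trace ≠ 0 ∨ (2 : F) = 0) {u v : L₂} (hu : u * π Z = π Z * u)
    (hv : v * π Z = π Z * v) : u * v = v * u := by
  obtain ⟨U, rfl⟩ := π_surjective u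
  obtain ⟨V, rfl⟩ := π_surjective v
  have h : ∀ W : SL(2, F), π W * π Z = π Z * π W → W * Z = Z * W := fun W hW =>
    Subgroup.mem_centralizer_singleton_iff.1 (comap_eq_of Z hc ▸
      Subgroup.mem_comap.2 (Subgroup.mem_centralizer_singleton_iff.2 hW))
  have hnsc : ¬ CharTwo.SLScal Z := by
    rintro ⟨h1, h2, h3⟩
    refine ns_of_π_ne_one hns (Z 0 0) ?_
    ext i j
    fin_cases i <;> fin_cases j <;> simp [h1, h2, ← h3]
  rw [← map_mul, ← map_mul, CharTwo.sl_commute_of_commute hnsc (h U hu) (h V hv)]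

/-- The upper root group element. -/
def upP (b : F) : L₂ := π (uu b)

/-- The lower root group element. -/
def loP (b : F) : L₂ := π (vv b)

theorem upP_add (a b : F) : upP a * upP b = upP (a + b) := by
  rw [upP, upP, upP, ← map_mul, uu_add]

theorem upP_zero : upP (0 : F) = 1 := by rw [upP, uu_zero, map_one]

theorem upP_inv (b : F) : (upP b)⁻¹ = upP (-b) := by rw [upP, upP, ← map_inv, uu_inv]

theorem upP_inj {a b : F} (h : upP a = upP b) : a = b := by
  obtain ⟨c, -, h⟩ := π_eq_iff.1 h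
  have h00 := congrFun (congrFun h 0) 0
  have h01 := congrFun (congrFun h 0) 1
  simp at h00 h01
  rw [← h00, one_mul] at h01
  exact h01.symm

theorem upP_ne_one {b : F} (hb : b ≠ 0) : upP b ≠ 1 := fun h =>
  hb (upP_inj (h.trans upP_zero.symm))

/-- The diagonal element `diag(a, a⁻¹)`. -/
def torS (a : Fˣ) : SL(2, F) :=
  ⟨!![(a : F), 0; 0, ((a⁻¹ : Fˣ) : F)], by simp [Matrix.det_fin_two]⟩

/-- Its image in `PSL(2, F)`. -/
def torP (a : Fˣ) : L₂ := π (torS a)

theorem torP_conj (a : Fˣ) (b : F) : torP a * upP b * (torP a)⁻¹ = upP ((a : F) * a * b) := by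
  rw [torP, upP, upP, ← map_mul, ← map_inv, ← map_mul, conj_uu_of_upper _ _ (by simp [torS])]
  simp [torS]

/-- The group of upper triangular elements. -/
def borP (F : Type*) [Field F] : Subgroup (Matrix.ProjectiveSpecialLinearGroup (Fin 2) F) where
  carrier := {g | ∃ X : SL(2, F), π X = g ∧ X 1 0 = 0}
  one_mem' := ⟨1, map_one _, by simp⟩
  mul_mem' := by
    rintro a b ⟨X, rfl, hX⟩ ⟨Y, rfl, hY⟩
    exact ⟨X * Y, map_mul _ _ _, by simp [Matrix.mul_apply, Fin.sum_univ_two, hX, hY]⟩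
  inv_mem' := by
    rintro a ⟨X, rfl, hX⟩
    exact ⟨X⁻¹, map_inv _ _, by simp [Matrix.SpecialLinearGroup.coe_inv, Matrix.adjugate_fin_two, hX]⟩

theorem upP_mem_borP (b : F) : upP b ∈ borP F := ⟨uu b, rfl, by simp⟩

theorem π_mem_borP {X : SL(2, F)} : π X ∈ borP F ↔ X 1 0 = 0 := by
  refine ⟨?_, fun h => ⟨X, rfl, h⟩⟩
  rintro ⟨Y, hY, h0⟩
  obtain ⟨c, -, hc⟩ := π_eq_iff.1 hY
  have := congrFun (congrFun hc 1) 0
  simp only [Matrix.smul_apply, smul_eq_mul, h0, mul_zero] at this
  exact this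

/-- A proper subgroup containing all upper unitriangular elements is upper triangular. -/
theorem le_borP {M : Subgroup L₂} (hM : M ≠ ⊤) (hU : ∀ b : F, upP b ∈ M) : M ≤ borP F := by
  intro g hg
  obtain ⟨X, rfl⟩ := π_surjective g
  rw [π_mem_borP]
  by_contra h
  apply hM
  set c := X 1 0
  set k : F := -(X 0 0 / c)
  set Y : SL(2, F) := uu k * X with hY
  have hY00 : Y 0 0 = 0 := by
    simp [hY, Matrix.mul_apply, Fin.sum_univ_two, k, c]
    rw [div_mul_cancel₀ _ (show X 1 0 ≠ 0 from h), add_neg_cancel]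
  have hY10 : Y 1 0 = c := by simp [hY, Matrix.mul_apply, Fin.sum_univ_two, c]
  have hYM : π Y ∈ M := by rw [hY, map_mul]; exact mul_mem (hU k) hg
  have hlo : ∀ b, π (vv b) ∈ M := by
    intro b
    have e : vv b = Y * uu (-(b / (c * c))) * Y⁻¹ := by
      have h2 := conj_uu Y (-(b / (c * c)))
      apply sl_ext <;> simp [h2, hY00, hY10]
      field_simp
    rw [e, map_mul, map_mul, map_inv]
    exact mul_mem (mul_mem hYM (hU _)) (inv_mem hYM)
  have htop : M.comap π = ⊤ := eq_top_of_all (fun x => hU x) hlo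
  rw [← Subgroup.map_comap_eq_self_of_surjective π_surjective M, htop,
    Subgroup.map_top_of_surjective _ π_surjective]

/-- Conjugation in `borP`. -/
theorem conj_upP_of_mem_borP {X : SL(2, F)} (h : X 1 0 = 0) (b : F) :
    π X * upP b * (π X)⁻¹ = upP (X 0 0 * X 0 0 * b) := by
  rw [upP, upP, ← map_mul, ← map_inv, ← map_mul, conj_uu_of_upper _ _ h]

/-- Commutators in `borP` are upper unitriangular. -/
theorem commutator_borP {X Y : SL(2, F)} (hX : X 1 0 = 0) (hY : Y 1 0 = 0) :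
    ∃ b : F, π X * π Y * (π X)⁻¹ * (π Y)⁻¹ = upP b := by
  have hX1 : X 0 0 * X 1 1 = 1 := by have := det_eq X; rw [hX, mul_zero, sub_zero] at this; exact this
  have hY1 : Y 0 0 * Y 1 1 = 1 := by have := det_eq Y; rw [hY, mul_zero, sub_zero] at this; exact this
  refine ⟨(X * Y * X⁻¹ * Y⁻¹ : SL(2, F)) 0 1, ?_⟩
  rw [upP, ← map_inv, ← map_inv, ← map_mul, ← map_mul, ← map_mul]
  congr 1
  apply sl_ext <;>
    simp [Matrix.mul_apply, Fin.sum_univ_two, Matrix.SpecialLinearGroup.coe_inv,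
      Matrix.adjugate_fin_two, hX, hY]
  · linear_combination X 0 0 * X 1 1 * hY1 + hX1
  · linear_combination X 0 0 * X 1 1 * hY1 + hX1

/-- The centraliser of a nontrivial upper unitriangular element. -/
theorem eq_upP_of_commute {b : F} (hb : b ≠ 0) {g : L₂} (h : g * upP b = upP b * g) :
    ∃ c, g = upP c := by
  obtain ⟨X, rfl⟩ := π_surjective g
  have h' : π (X * uu b * X⁻¹) = π (uu b) := by
    rw [map_mul, map_mul, map_inv]
    exact mul_inv_eq_iff_eq_mul.2 h
  obtain ⟨c, -, he⟩ := π_eq_iff.1 h'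
  rw [conj_uu] at he
  have e00 := congrFun (congrFun he 0) 0
  have e11 := congrFun (congrFun he 1) 1
  have e10 := congrFun (congrFun he 1) 0
  have e01 := congrFun (congrFun he 0) 1
  simp at e00 e11 e10 e01
  have h10 : X 1 0 = 0 := by
    have hc : c ≠ 0 := fun h0 => by simp [h0] at e00
    rcases e10 with h1 | h1
    · exact absurd h1 hc
    · exact h1.resolve_left hb
  have hd := det_eq X
  rw [h10, mul_zero, sub_zero] at hd
  have hc1 : c = 1 := by rw [h10] at e00; simpa using e00.symm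
  rw [hc1, one_mul] at e01
  have hsq : X 0 0 * X 0 0 = 1 := by
    apply mul_right_cancel₀ hb
    linear_combination -e01
  refine ⟨X 0 0 * X 0 1, ?_⟩
  rw [upP, π_eq_iff]
  refine ⟨X 0 0, by rw [sq, hsq], ?_⟩
  have h11 : X 1 1 = X 0 0 := by
    calc X 1 1 = X 0 0 * X 0 0 * X 1 1 := by rw [hsq, one_mul]
      _ = X 0 0 := by rw [mul_assoc, hd, mul_one]
  ext i j
  fin_cases i <;> fin_cases j <;> simp [h10, h11, hsq]

end psl

end Cfsg.Agent.ClassicalMax.Binary
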