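import Cfsg.Agent.SzChar.SquareCover
import Cfsg.Agent.Suzuki.PartData

/-!
# Non-commuting triangles inside one class of the Suzuki groups
-/

set_option autoImplicit false
set_option linter.unusedSectionVars false
set_option linter.style.haveILetI false

namespace Cfsg.Agent.ClassicalMax.BinarySz

open Cfsg Cfsg.Agent.Suzuki MulAction
open Cfsg.Agent.SzChar Cfsg.Agent.SzChar.Table
open scoped ComplexConjugate

/-- A large class product sum gives a factorisation outside a prescribed subgroup. -/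
theorem exists_triangle {G : Type*} [Group G] [Finite G] (x : G) (N : Subgroup G)
    (h : (Nat.card (Subgroup.centralizer ({x} : Set G)) : ℝ) * Nat.card N <
      (Nat.card G : ℝ) * ‖∑ χ : IrrCharacter G, (χ : G → ℂ) x * (χ : G → ℂ) x *
        conj ((χ : G → ℂ) x) / (χ : G → ℂ) 1‖) :
    ∃ y : G, y ∉ N ∧ IsConj (x * (y * x * y⁻¹)) x := by
  classical
  letI := Fintype.ofFinite G
  by_contra hne
  push Not at hne
  refine absurd h (not_lt.2 ?_)
  set C := Nat.card (Subgroup.centralizer ({x} : Set G))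
  have h0 : ∀ y : G, ∑ χ : IrrCharacter G, (χ : G → ℂ) (x * (y * x * y⁻¹)) * conj ((χ : G → ℂ) x) =
      if IsConj x (x * (y * x * y⁻¹)) then (C : ℂ) else 0 := by
    intro y
    have e := congrArg (starRingEnd ℂ) (Char.sum_irr_mul_conj x (x * (y * x * y⁻¹)))
    rw [map_sum, apply_ite (starRingEnd ℂ), map_natCast, map_zero] at e
    convert e using 1
    · exact Finset.sum_congr rfl fun χ _ => by rw [map_mul, Complex.conj_conj]; ring
    · congr
  have e1 : ∑ y : G, ∑ χ : IrrCharacter G, (χ : G → ℂ) (x * (y * x * y⁻¹)) * conj ((χ : G → ℂ) x) =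
      (Nat.card G : ℂ) * ∑ χ : IrrCharacter G, (χ : G → ℂ) x * (χ : G → ℂ) x *
        conj ((χ : G → ℂ) x) / (χ : G → ℂ) 1 := by
    rw [Finset.sum_comm]
    simp only [← Finset.sum_mul, fun χ : IrrCharacter G => BlocksChar.sum_conj_mul χ.2 x x,
      Finset.mul_sum]
    exact Finset.sum_congr rfl fun χ _ => by ring
  simp only [h0] at e1
  have e2 := congrArg norm e1
  rw [norm_mul, Complex.norm_natCast] at e2
  rw [← e2]
  refine (norm_sum_le _ _).trans ?_
  refine (Finset.sum_le_sum (g := fun y => if y ∈ N then (C : ℝ) else 0) fun y _ => ?_).trans ?_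
  · by_cases hc : IsConj x (x * (y * x * y⁻¹))
    · rw [if_pos hc, if_pos (by_contra fun hy => hne y hy hc.symm), Complex.norm_natCast]
    · rw [if_neg hc, norm_zero]
      split_ifs <;> positivity
  · rw [← Finset.sum_filter, Finset.sum_const, nsmul_eq_mul, mul_comm,
      Nat.card_eq_fintype_card (α := N), Fintype.card_subtype]

variable {F : Type*} [Field F] [Fintype F] {m : ℕ} [hS : SuzukiField F m]

theorem lower_of_norm_le {r : ℝ} {z : ℂ} {b : ℝ} (h : ‖z‖ ≤ b) : r - b ≤ ‖(r : ℂ) + z‖ := by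
  have h1 := norm_sub_norm_le (r : ℂ) (-z)
  rw [sub_neg_eq_add, norm_neg, Complex.norm_real, Real.norm_eq_abs] at h1
  have := le_abs_self r
  linarith

theorem N_split_ge (T : Table F m) {l : Fˣ} (hl : l ≠ 1) : 1 / 16 ≤ ‖N (gD l) (gD (m := m) l)‖ := by
  have hrep : T.IsRep (gD l) := Or.inr (Or.inr (Or.inl ⟨l, hl, rfl⟩))
  rw [T.N_eq]
  refine le_trans ?_ (lower_of_norm_le le_rfl)
  rw [T.gD_zero T.U (Or.inl rfl) l hl, T.gD_zero T.V (Or.inr (Or.inl rfl)) l hl,
    Finset.sum_eq_zero (s := T.XS) (fun χ hχ => by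
      rw [T.gD_zero χ (Or.inr (Or.inr (Or.inl hχ))) l hl, zero_mul, zero_mul]),
    Finset.sum_eq_zero (s := T.YS) (fun χ hχ => by
      rw [T.gD_zero χ (Or.inr (Or.inr (Or.inr hχ))) l hl, zero_mul, zero_mul])]
  simp only [zero_mul, zero_add, zero_div, add_zero]
  rw [le_sub_comm]
  have hq := two_le_rq (F := F) (m := m)
  have h1 : ‖(T.χS : Cfsg.Sz F m → ℂ) (gD l) * (T.χS : Cfsg.Sz F m → ℂ) (gD l) *
      conj ((T.χS : Cfsg.Sz F m → ℂ) (gD l))‖ ≤ 1 := by
    rw [T.st, steinberg_gD hl, one_mul, one_mul, map_one, norm_one]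
  have h2 : ‖∑ θ ∈ T.PS, (θ : Cfsg.Sz F m → ℂ) (gD l) * (θ : Cfsg.Sz F m → ℂ) (gD l) *
      conj ((θ : Cfsg.Sz F m → ℂ) (gD l))‖ ≤ (rq F - 2) * 2 * 2 := by
    refine norm_sum_mul_le T.PS _ _ (by norm_num) ?_ (fun θ hθ => T.norm_theta_le hrep hθ)
    refine (Finset.sum_le_sum (g := fun _ => (4 : ℝ)) fun θ hθ => ?_).trans ?_
    · nlinarith [T.theta_d hθ hl, norm_nonneg ((θ : Cfsg.Sz F m → ℂ) (gD l))]
    · rw [Finset.sum_const, nsmul_eq_mul, T.cardPS_real]; linarith
  refine (norm_add_le _ _).trans ((add_le_add (norm_div_real_le (by positivity) h1)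
    (norm_div_real_le (by positivity) h2)).trans ?_)
  have := ineq_st (F := F) (m := m)
  have := ineq_ps (F := F) (m := m)
  rw [show (rq F - 2) * 2 * 2 / (rq F ^ 2 + 1) = 4 * ((rq F - 2) / (rq F ^ 2 + 1)) by ring]
  linarith

theorem N_four_ge (T : Table F m) {a : F} (ha : a ≠ 0) (b : F) :
    1 / 2 ≤ ‖N (gT a b) (gT (m := m) a b)‖ := by
  have hp := gT_mem_unip (m := m) a b
  have hp1 := gT_ne_one_of_left (m := m) ha b
  obtain ⟨f1, -, f3, f4⟩ := T.val_four ha b
  rw [T.N_eq, T.st, steinberg_unip hp hp1, f1,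
    Finset.sum_congr rfl (s₁ := T.PS) (fun θ hθ => by
      rw [T.theta_u hθ hp hp1, one_mul, one_mul, map_one]),
    Finset.sum_congr rfl (s₁ := T.XS) (fun χ hχ => by
      rw [f3 χ hχ, map_neg, map_one, neg_mul_neg, one_mul]),
    Finset.sum_congr rfl (s₁ := T.YS) (fun χ hχ => by
      rw [f4 χ hχ, map_neg, map_one, neg_mul_neg, one_mul])]
  set u := (T.U : Cfsg.Sz F m → ℂ) (gT a b)
  rw [show u * u * conj u + -u * -u * conj (-u) = 0 by rw [map_neg]; ring]
  simp only [zero_mul, zero_div, zero_add, add_zero, Finset.sum_const, nsmul_eq_mul, mul_one,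
    mul_neg]
  have e : ((1 : ℝ) : ℂ) + ((T.PS.card : ℂ) / ((rq F ^ 2 + 1 : ℝ) : ℂ) +
      -(T.XS.card : ℂ) / (((rq F - 1) * (rq F - 2 * rs m + 1) : ℝ) : ℂ) +
      -(T.YS.card : ℂ) / (((rq F - 1) * (rq F + 2 * rs m + 1) : ℝ) : ℂ)) =
    ((1 + ((T.PS.card : ℝ) / (rq F ^ 2 + 1) +
      -(T.XS.card : ℝ) / ((rq F - 1) * (rq F - 2 * rs m + 1)) +
      -(T.YS.card : ℝ) / ((rq F - 1) * (rq F + 2 * rs m + 1))) : ℝ) : ℂ) := by
    push_cast; ring
  rw [e, Complex.norm_real, Real.norm_eq_abs]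
  refine le_trans ?_ (le_abs_self _)
  have hps : 0 ≤ (T.PS.card : ℝ) / (rq F ^ 2 + 1) := by positivity
  have hq := rq_eq (F := F) (m := m)
  have hs := two_le_rs (F := F) (m := m)
  rw [neg_div, neg_div, T.cardXS_real, T.cardYS_real]
  have e3 : ((rq F + 2 * rs m) / 4) / ((rq F - 1) * (rq F - 2 * rs m + 1)) ≤ 1 / 5 := by
    rw [div_le_iff₀ (dX_pos (F := F) (m := m)), hq]
    nlinarith [mul_nonneg (sub_nonneg.2 hs) (sq_nonneg (rs m)),
      mul_nonneg (sub_nonneg.2 hs) (sq_nonneg (rs m - 2))]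
  have e4 : ((rq F - 2 * rs m) / 4) / ((rq F - 1) * (rq F + 2 * rs m + 1)) ≤ 1 / 5 := by
    rw [div_le_iff₀ (dY_pos (F := F) (m := m)), hq]
    nlinarith [mul_nonneg (sub_nonneg.2 hs) (sq_nonneg (rs m)),
      mul_nonneg (sub_nonneg.2 hs) (sq_nonneg (rs m - 2))]
  linarith

theorem N_B_ge (T : Table F m) {x : Cfsg.Sz F m} (hx : x ∈ T.B) (hx1 : x ≠ 1) :
    1 / 16 ≤ ‖N x x‖ := by
  rw [T.N_eq]
  refine le_trans ?_ (lower_of_norm_le le_rfl)
  rw [T.st_B hx hx1, T.U_B x hx hx1, T.V_B x hx hx1,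
    Finset.sum_eq_zero (s := T.PS) (fun θ hθ => by
      rw [T.theta_semi hθ (T.hB.semireg hx hx1).1, zero_mul, zero_mul]),
    Finset.sum_eq_zero (s := T.XS) (fun χ hχ => by
      rw [T.X_B χ hχ x hx hx1, zero_mul, zero_mul])]
  simp only [zero_div, add_zero, neg_mul, one_mul, mul_neg, neg_neg, map_neg, map_one]
  rw [le_sub_comm]
  have hrep : T.IsRep x := Or.inr (Or.inr (Or.inr (Or.inr ⟨hx, hx1⟩)))
  have hq := rq_eq (F := F) (m := m)
  have hs := two_le_rs (F := F) (m := m)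
  have h3 : ‖∑ χ ∈ T.YS, (χ : Cfsg.Sz F m → ℂ) x * (χ : Cfsg.Sz F m → ℂ) x *
      conj ((χ : Cfsg.Sz F m → ℂ) x)‖ ≤ (rq F - 2 * rs m - 3) * (2 * rs m + 1) :=
    norm_sum_mul_le T.YS _ _ (by linarith) (le_of_eq (T.norm_B hx hx1))
      (fun χ hχ => T.norm_Y_le hrep hχ)
  refine (norm_add₃_le).trans ((add_le_add (add_le_add
    (norm_div_real_le (c := 1) (by positivity) (by norm_num))
    (norm_div_real_le (c := 2) (dU_pos (F := F) (m := m)) (by norm_num)))
    (norm_div_real_le (dY_pos (F := F) (m := m)) h3)).trans ?_)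
  have := ineq_st (F := F) (m := m)
  have := ineq_uv (F := F) (m := m)
  have e3 : (rq F - 2 * rs m - 3) * (2 * rs m + 1) /
      ((rq F - 1) * (rq F + 2 * rs m + 1)) ≤ 1 / 2 := by
    rw [div_le_iff₀ (dY_pos (F := F) (m := m)), hq]
    nlinarith [sq_nonneg (rs m - 2), mul_nonneg (sub_nonneg.2 hs) (sq_nonneg (rs m))]
  linarith

theorem N_A_ge (T : Table F m) {x : Cfsg.Sz F m} (hx : x ∈ T.A) (hx1 : x ≠ 1) :
    1 / 16 ≤ ‖N x x‖ := by
  rw [T.N_A hx hx1, T.st_A hx hx1, T.U_A x hx hx1, T.V_A x hx hx1]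
  simp only [map_neg, map_one]
  set z := (∑ χ ∈ T.XS, (χ : Cfsg.Sz F m → ℂ) x * (χ : Cfsg.Sz F m → ℂ) x *
    conj ((χ : Cfsg.Sz F m → ℂ) x)) / (((rq F - 1) * (rq F - 2 * rs m + 1) : ℝ) : ℂ) with hz
  rw [show ((1 : ℝ) : ℂ) + (-1 / ((rq F ^ 2 : ℝ) : ℂ) +
      (1 + 1) / (((rq F - 1) * rs m : ℝ) : ℂ) + z) =
    ((1 - 1 / rq F ^ 2 + 2 / ((rq F - 1) * rs m) : ℝ) : ℂ) + z by push_cast; ring]
  refine le_trans ?_ (lower_of_norm_le (b := (rq F + 2 * rs m - 3) * (2 * rs m) /
      ((rq F - 1) * (rq F - 2 * rs m + 1))) ?_)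
  · have hs := two_le_rs (F := F) (m := m)
    have hpos : 0 ≤ 2 / ((rq F - 1) * rs m) := div_nonneg zero_le_two (dU_pos (F := F) (m := m)).le
    have hst := ineq_st (F := F) (m := m)
    rcases Nat.lt_or_ge (2 ^ m) 3 with h | h
    · have h2 : 2 ^ 1 ≤ 2 ^ m := Nat.pow_le_pow_right (by norm_num) hS.one_le
      have h3 : rs m = 2 := by
        rw [rs, show 2 ^ m = 2 by omega]; norm_num
      rw [rq_eq (m := m), h3]
      norm_num
    · have h3 : (3 : ℝ) ≤ rs m := by rw [rs]; exact_mod_cast h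
      have : (rq F + 2 * rs m - 3) * (2 * rs m) /
          ((rq F - 1) * (rq F - 2 * rs m + 1)) ≤ 3 / 4 := by
        rw [div_le_iff₀ (dX_pos (F := F) (m := m)), rq_eq (m := m)]
        nlinarith [mul_nonneg (sub_nonneg.2 h3) (sq_nonneg (rs m)),
          mul_nonneg (mul_nonneg (sub_nonneg.2 h3) (by linarith : (0:ℝ) ≤ rs m)) (sq_nonneg (rs m))]
      linarith
  · refine norm_div_real_le (dX_pos (F := F) (m := m)) ?_
    exact norm_sum_mul_le T.XS _ _ (by have := two_le_rs (F := F) (m := m); linarith)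
      (le_of_eq (T.norm_A hx hx1)) (fun χ hχ => T.sum_norm_A_le hx hx1 hχ)

theorem card_sz_q : Nat.card (Cfsg.Sz F m) =
    Fintype.card F ^ 2 * (Fintype.card F ^ 2 + 1) * (Fintype.card F - 1) := by
  rw [card_sz, hS.card]

theorem card_sz_real : (Nat.card (Cfsg.Sz F m) : ℝ) = rq F ^ 2 * (rq F ^ 2 + 1) * (rq F - 1) := by
  rw [card_sz_q, Nat.cast_mul, Nat.cast_mul, Nat.cast_sub Fintype.card_pos, rq]
  push_cast
  ring

/-- A triangle at an element of order four. -/
theorem triangle_four {a : F} (ha : a ≠ 0) (b : F) :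
    ∃ y : Cfsg.Sz F m, y ∉ stabilizer (Cfsg.Sz F m) (oInf F m) ∧
      IsConj (gT a b * (y * gT a b * y⁻¹)) (gT a b) := by
  classical
  obtain ⟨T⟩ := exists_table (F := F) (m := m)
  refine exists_triangle _ _ (lt_of_lt_of_le ?_
    (mul_le_mul_of_nonneg_left (N_four_ge T ha b) (Nat.cast_nonneg _)))
  have hC : Nat.card (Subgroup.centralizer ({gT a b} : Set (Cfsg.Sz F m))) ≤ 2 * Fintype.card F := by
    let f : Subgroup.centralizer ({gT a b} : Set (Cfsg.Sz F m)) → Bool × F := fun u =>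
      if h : ∃ c e : F, (u : Cfsg.Sz F m) = gT c e then
        (decide (h.choose = 0), h.choose_spec.choose) else (true, 0)
    have hf : Function.Injective f := by
      intro u v huv
      have hu : ∀ w : Subgroup.centralizer ({gT a b} : Set (Cfsg.Sz F m)),
          ∃ c e : F, (w : Cfsg.Sz F m) = gT c e := fun w => by
        obtain ⟨c, e, h⟩ := centralizer_unip_le (gT_mem_unip a b) (gT_ne_one_of_left ha b) w.2
        exact ⟨c, e, h⟩
      have hval : ∀ w : Subgroup.centralizer ({gT a b} : Set (Cfsg.Sz F m)),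
          (hu w).choose = 0 ∨ (hu w).choose = a := by
        intro w
        have hw := (hu w).choose_spec.choose_spec
        set c := (hu w).choose
        have hc : Commute (gT c (hu w).choose_spec.choose : Cfsg.Sz F m) (gT a b) := by
          rw [← hw]; exact Subgroup.mem_centralizer_singleton_iff.1 w.2
        rw [gT_commute_iff] at hc
        rcases eq_or_ne c 0 with h0 | h0
        · exact Or.inl h0
        · right
          have h1 : th F m (c / a) * 1 = c / a := by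
            rw [map_div₀]
            have : th F m a ≠ 0 := by simpa using ha
            field_simp
            linear_combination hc
          rw [mul_one] at h1
          have h2 : (c / a) ^ 2 = c / a := by rw [← th_th (F := F) (m := m) (c / a), h1, h1]
          have h3 : c / a = 1 := by
            apply mul_left_cancel₀ (div_ne_zero h0 ha)
            rw [mul_one, ← pow_two, h2]
          exact (div_eq_one_iff_eq ha).1 h3
      simp only [f, dif_pos (hu u), dif_pos (hu v), Prod.mk.injEq, decide_eq_decide] at huv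
      apply Subtype.ext
      rw [(hu u).choose_spec.choose_spec, (hu v).choose_spec.choose_spec]
      congr 1
      · rcases hval u with h | h <;> rcases hval v with h' | h'
        · rw [h, h']
        · exact absurd ((huv.1.1 h).symm.trans h').symm ha
        · exact absurd ((huv.1.2 h').symm.trans h).symm ha
        · rw [h, h']
      · exact huv.2
    refine (Nat.card_le_card_of_injective f hf).trans ?_
    simp [Nat.card_eq_fintype_card]
  have hC' : (Nat.card (Subgroup.centralizer ({gT a b} : Set (Cfsg.Sz F m))) : ℝ) ≤ 2 * rq F := by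
    rw [rq]; exact_mod_cast hC
  rw [card_stabilizer_oInf, card_sz_real, Nat.cast_mul, Nat.cast_sub Fintype.card_pos]
  push_cast
  rw [← rq]
  have hq := Table.two_le_rq (F := F) (m := m)
  calc _ ≤ 2 * rq F * (rq F ^ 2 * (rq F - 1)) :=
        mul_le_mul_of_nonneg_right hC' (mul_nonneg (sq_nonneg _) (by linarith))
    _ < _ := by
      nlinarith [mul_lt_mul_of_pos_right (show 4 * rq F < rq F ^ 2 + 1 by nlinarith)
        (show (0:ℝ) < rq F ^ 2 * (rq F - 1) from mul_pos (by positivity) (by linarith))]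

theorem IsTorus.isCycPart_A (T : Table F m) : IsCycPart T.A :=
  ⟨T.hA.isCyclic, by rw [T.cardA, hS.card]; simp [pow_succ, mul_comm]⟩

theorem IsTorus.isCycPart_B (T : Table F m) : IsCycPart T.B :=
  ⟨T.hB.isCyclic, by
    have h := T.cardB
    rw [hS.card] at h
    have : 2 * 2 ^ m = 2 ^ (m + 1) := by rw [pow_succ, mul_comm]
    rw [show Nat.card T.B = 2 ^ (2 * m + 1) - 2 ^ (m + 1) + 1 by
      have := pow_le_pow_q (F := F) (m := m); omega]
    simp⟩

/-- Every semisimple element is conjugate to one with a triangle. -/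
theorem triangle_semisimple {g : Cfsg.Sz F m} (hg : g ≠ 1) (hu : g ∉ conjCover (unip F m)) :
    ∃ (k : Cfsg.Sz F m) (U : Subgroup (Cfsg.Sz F m)) (y : Cfsg.Sz F m), IsCycPart U ∧
      k⁻¹ * g * k ∈ U ∧ Subgroup.centralizer ({k⁻¹ * g * k} : Set (Cfsg.Sz F m)) = U ∧
      y ∉ Subgroup.normalizer (U : Set (Cfsg.Sz F m)) ∧
      IsConj ((k⁻¹ * g * k) * (y * (k⁻¹ * g * k) * y⁻¹)) (k⁻¹ * g * k) := by
  classical
  obtain ⟨T⟩ := exists_table (F := F) (m := m)
  have hne : ∀ k : Cfsg.Sz F m, k⁻¹ * g * k ≠ 1 := fun k h => hg (by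
    calc g = k * (k⁻¹ * g * k) * k⁻¹ := by group
      _ = 1 := by rw [h]; group)
  suffices main : ∀ (k : Cfsg.Sz F m) (U : Subgroup (Cfsg.Sz F m)), IsCycPart U → k⁻¹ * g * k ∈ U →
      Subgroup.centralizer ({k⁻¹ * g * k} : Set (Cfsg.Sz F m)) = U →
      1 / 16 ≤ ‖N (k⁻¹ * g * k) (k⁻¹ * g * k)‖ →
      ∃ y : Cfsg.Sz F m, y ∉ Subgroup.normalizer (U : Set (Cfsg.Sz F m)) ∧
        IsConj ((k⁻¹ * g * k) * (y * (k⁻¹ * g * k) * y⁻¹)) (k⁻¹ * g * k) by
    rcases trichotomy hg with h | ⟨-, k, hk⟩ | hs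
    · exact absurd h hu
    · obtain ⟨l, hl⟩ := exists_of_mem_torus hk
      have hC := centralizer_torus_eq hk (hne k)
      obtain ⟨y, hy⟩ := main k _ torus_isCycPart hk hC
        (by rw [hl]; exact N_split_ge T (fun h => hne k (by rw [hl, h, gD_one])))
      exact ⟨k, _, y, torus_isCycPart, hk, hC, hy⟩
    · rcases T.cover g hs with ⟨-, k, hk⟩ | ⟨-, k, hk⟩
      · have hC := (T.hA.semireg hk (hne k)).2
        obtain ⟨y, hy⟩ := main k _ (IsTorus.isCycPart_A T) hk hC (N_A_ge T hk (hne k))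
        exact ⟨k, _, y, IsTorus.isCycPart_A T, hk, hC, hy⟩
      · have hC := (T.hB.semireg hk (hne k)).2
        obtain ⟨y, hy⟩ := main k _ (IsTorus.isCycPart_B T) hk hC (N_B_ge T hk (hne k))
        exact ⟨k, _, y, IsTorus.isCycPart_B T, hk, hC, hy⟩
  intro k U hU hx hC hN
  refine exists_triangle _ _ (lt_of_lt_of_le ?_ (mul_le_mul_of_nonneg_left hN (Nat.cast_nonneg _)))
  obtain ⟨w, hw, hcard⟩ := hU.card_normalizer
  have hU2 : Nat.card U ≤ 2 * Fintype.card F ∧ w ≤ 4 := by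
    have hlt : 2 ^ (m + 1) < 2 ^ (2 * m + 1) :=
      Nat.pow_lt_pow_right (by norm_num) (by have := hS.one_le; omega)
    have := Nat.two_pow_pos (2 * m)
    have := Nat.two_pow_pos m
    rw [hS.card]
    rcases hw with ⟨e, rfl⟩ | ⟨e, rfl⟩ | ⟨e, rfl⟩ <;> rw [e] <;> refine ⟨?_, by norm_num⟩ <;> omega
  rw [hC, hcard, card_sz_real, Nat.cast_mul]
  have h1 : (Nat.card U : ℝ) ≤ 2 * rq F := by rw [rq]; exact_mod_cast hU2.1
  have h2 : (w : ℝ) ≤ 4 := by exact_mod_cast hU2.2
  have hq := Table.two_le_rq (F := F) (m := m)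
  have h3 : (0 : ℝ) ≤ Nat.card U := Nat.cast_nonneg _
  have h65 : (65 : ℝ) ≤ rq F ^ 2 + 1 := by nlinarith
  have h455 : (455 : ℝ) ≤ (rq F ^ 2 + 1) * (rq F - 1) := by nlinarith
  calc (Nat.card U : ℝ) * (w * Nat.card U) ≤ 2 * rq F * (4 * (2 * rq F)) :=
        mul_le_mul h1 (mul_le_mul h2 h1 h3 (by norm_num)) (by positivity) (by linarith)
    _ < rq F ^ 2 * (rq F ^ 2 + 1) * (rq F - 1) * (1 / 16) := by
      have hq2 : (0 : ℝ) < rq F ^ 2 := by positivity
      nlinarith [mul_le_mul_of_nonneg_left h455 hq2.le]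

end Cfsg.Agent.ClassicalMax.BinarySz
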