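import Mathlib

set_option autoImplicit false
set_option linter.style.haveILetI false

namespace Cfsg.Agent.ClassicalMax

open MulAction

variable {G Ω : Type*} [Group G] [Finite G] [MulAction G Ω] [FaithfulSMul G Ω] [Fintype Ω]

/-- Cameron–Cohen: at least |G|/n derangements, with equality exactly for sharply 2-transitive groups. -/
theorem cameron_cohen (htr : IsPretransitive G Ω) (hn : 3 ≤ Fintype.card Ω) :
    (((∃ g : G, g ≠ 1 ∧ ∃ ω : Ω, g • ω = ω) ∧
        ∀ g : G, g ≠ 1 → Nat.card (fixedBy Ω g) ≤ 1) ∧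
      Nat.card G = Fintype.card Ω * (Fintype.card Ω - 1) ∧
      Fintype.card Ω * Nat.card {g : G // ∀ ω : Ω, g • ω ≠ ω} = Nat.card G) ∨
    Nat.card G < Fintype.card Ω * Nat.card {g : G // ∀ ω : Ω, g • ω ≠ ω} := by
  classical
  letI : Fintype G := Fintype.ofFinite G
  haveI := htr
  rw [or_iff_not_imp_right, not_lt]
  intro hle
  set n : ℕ := Fintype.card Ω with hn_def
  haveI hnt : Nontrivial Ω := Fintype.one_lt_card_iff_nontrivial.mp (by omega)
  haveI : Nonempty Ω := inferInstance
  let π : G → ℕ := fun g => Nat.card (fixedBy Ω g)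
  set D := Finset.univ.filter (fun g : G => π g = 0) with hD
  have hπ0 : ∀ g, π g = 0 ↔ ∀ ω : Ω, g • ω ≠ ω := by
    intro g
    simp only [π, Nat.card_eq_zero, isEmpty_subtype, mem_fixedBy, or_iff_left_iff_imp]
    intro h; exact absurd h (not_infinite_iff_finite.mpr inferInstance)
  have hd : Nat.card {g : G // ∀ ω : Ω, g • ω ≠ ω} = D.card := by
    rw [hD, Nat.card_eq_fintype_card, Fintype.card_subtype]
    simp [hπ0]
  have hπn : ∀ g, π g ≤ n := fun g => by
    rw [hn_def, ← Nat.card_eq_fintype_card]; exact Finite.card_subtype_le _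
  have hπfull : ∀ g, π g = n → g = 1 := by
    intro g hg
    apply eq_of_smul_eq_smul (α := Ω)
    intro ω
    rw [one_smul]
    have h : fixedBy Ω g = Set.univ := by
      refine Set.eq_of_subset_of_ncard_le (Set.subset_univ _) ?_ (Set.toFinite _)
      rw [Set.ncard_univ, Nat.card_eq_fintype_card, ← Nat.card_coe_set_eq]
      exact hg.ge
    have : ω ∈ fixedBy Ω g := h ▸ Set.mem_univ ω
    exact this
  -- first and second moments
  have hsum1 : ∑ g : G, π g = Fintype.card G := by
    have h := sum_card_fixedBy_eq_card_orbits_mul_card_group G Ω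
    haveI : Subsingleton (orbitRel.Quotient G Ω) :=
      pretransitive_iff_subsingleton_quotient G Ω |>.mp htr
    haveI : Nonempty (orbitRel.Quotient G Ω) := ⟨Quotient.mk'' (Classical.arbitrary Ω)⟩
    have hone : Fintype.card (Quotient (orbitRel G Ω)) = 1 :=
      Fintype.card_eq_one_iff.mpr ⟨Quotient.mk'' (Classical.arbitrary Ω), fun q => Subsingleton.elim (α := orbitRel.Quotient G Ω) q _⟩
    rw [hone, one_mul] at h
    simpa only [π, Nat.card_eq_fintype_card] using h
  set Q := Quotient (orbitRel G (Ω × Ω))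
  have hsum2 : ∑ g : G, π g ^ 2 = Fintype.card Q * Fintype.card G := by
    rw [← sum_card_fixedBy_eq_card_orbits_mul_card_group G (Ω × Ω)]
    refine Finset.sum_congr rfl fun g _ => ?_
    simp only [π]
    rw [sq, ← Nat.card_prod, ← Nat.card_eq_fintype_card]
    exact Nat.card_congr
      { toFun := fun z => ⟨(z.1.1, z.2.1), Prod.ext z.1.2 z.2.2⟩
        invFun := fun z => (⟨z.1.1, congrArg Prod.fst z.2⟩, ⟨z.1.2, congrArg Prod.snd z.2⟩)
        left_inv := fun z => rfl
        right_inv := fun z => rfl }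
  obtain ⟨a, b, hab⟩ := exists_pair_ne Ω
  have hr : 2 ≤ Fintype.card Q := by
    refine Fintype.one_lt_card_iff.mpr ⟨Quotient.mk'' (a, a), Quotient.mk'' (a, b), ?_⟩
    intro h
    obtain ⟨g, hg⟩ := orbitRel_apply.mp (Quotient.exact h)
    exact hab (smul_left_cancel g ((congrArg Prod.fst hg).trans (congrArg Prod.snd hg).symm))
  have hid : ∑ g : G, (((π g : ℤ) - 1) * ((π g : ℤ) - n)) = ((Fintype.card Q : ℤ) - 1) * Fintype.card G := by
    have h1 : ∑ g : G, (π g : ℤ) = Fintype.card G := by exact_mod_cast hsum1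
    have h2 : ∑ g : G, (π g : ℤ) ^ 2 = Fintype.card Q * Fintype.card G := by exact_mod_cast hsum2
    calc ∑ g : G, (((π g : ℤ) - 1) * ((π g : ℤ) - n))
        = ∑ g : G, ((π g : ℤ) ^ 2 - (n + 1) * (π g : ℤ) + n) := Finset.sum_congr rfl fun g _ => by ring
      _ = _ := by
        rw [Finset.sum_add_distrib, Finset.sum_sub_distrib, ← Finset.mul_sum, h1, h2]
        simp [Finset.card_univ]; ring
  have hsplit : ∑ g : G, (((π g : ℤ) - 1) * ((π g : ℤ) - n)) =
      (n : ℤ) * D.card + ∑ g ∈ Finset.univ.filter (fun g : G => ¬ π g = 0), (((π g : ℤ) - 1) * ((π g : ℤ) - n)) := by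
    rw [← Finset.sum_filter_add_sum_filter_not Finset.univ (fun g : G => π g = 0), hD]
    congr 1
    rw [mul_comm]
    rw [Finset.sum_congr rfl (fun g hg => ?_), Finset.sum_const, nsmul_eq_mul]
    simp [(Finset.mem_filter.mp hg).2]
  set R := ∑ g ∈ Finset.univ.filter (fun g : G => ¬ π g = 0), (((π g : ℤ) - 1) * ((π g : ℤ) - n)) with hR
  have hterm : ∀ g ∈ Finset.univ.filter (fun g : G => ¬ π g = 0), (((π g : ℤ) - 1) * ((π g : ℤ) - n)) ≤ 0 := by
    intro g hg
    have h1 : (1 : ℤ) ≤ π g := by
      have := (Finset.mem_filter.mp hg).2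
      omega
    have h2 : (π g : ℤ) ≤ n := by exact_mod_cast hπn g
    exact mul_nonpos_of_nonneg_of_nonpos (by omega) (by omega)
  have hRle : R ≤ 0 := Finset.sum_nonpos hterm
  rw [hd, Nat.card_eq_fintype_card] at hle
  have hle' : (n : ℤ) * D.card ≤ Fintype.card G := by exact_mod_cast hle
  have hGpos : (0 : ℤ) < Fintype.card G := by exact_mod_cast Fintype.card_pos
  have hQ : Fintype.card Q = 2 := by
    by_contra hne
    have h3 : (3 : ℤ) ≤ Fintype.card Q := by omega
    nlinarith
  rw [hQ, hsplit] at hid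
  have hR0 : R = 0 := by push_cast at hid; linarith
  have heqd : (n : ℤ) * D.card = Fintype.card G := by push_cast at hid; linarith
  have hall : ∀ g : G, g ≠ 1 → π g ≤ 1 := by
    intro g hg
    by_contra hc
    have hmem : g ∈ Finset.univ.filter (fun g : G => ¬ π g = 0) :=
      Finset.mem_filter.mpr ⟨Finset.mem_univ _, by omega⟩
    have h0 := (Finset.sum_eq_zero_iff_of_nonpos hterm).mp (hR ▸ hR0) g hmem
    rcases mul_eq_zero.mp h0 with h | h
    · omega
    · exact hg (hπfull g (by omega))
  -- sharply 2-transitive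
  have hoff : ∀ x y : Ω, x ≠ y → ∃ g : G, g • a = x ∧ g • b = y := by
    intro x y hxy
    by_contra hno
    have : 3 ≤ Fintype.card Q := by
      refine Fintype.two_lt_card_iff.mpr ⟨Quotient.mk'' (a, a), Quotient.mk'' (a, b), Quotient.mk'' (x, y), ?_, ?_, ?_⟩
      · intro h
        obtain ⟨g, hg⟩ := orbitRel_apply.mp (Quotient.exact h)
        exact hab (smul_left_cancel g ((congrArg Prod.fst hg).trans (congrArg Prod.snd hg).symm))
      · intro h
        obtain ⟨g, hg⟩ := orbitRel_apply.mp (Quotient.exact h.symm)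
        exact hxy ((congrArg Prod.fst hg).symm.trans (congrArg Prod.snd hg))
      · intro h
        obtain ⟨g, hg⟩ := orbitRel_apply.mp (Quotient.exact h.symm)
        exact hno ⟨g, congrArg Prod.fst hg, congrArg Prod.snd hg⟩
    omega
  have horb : orbit G (a, b) = {z : Ω × Ω | z.1 ≠ z.2} := by
    ext z
    constructor
    · rintro ⟨g, rfl⟩ h
      exact hab (smul_left_cancel g h)
    · intro hz
      obtain ⟨g, h1, h2⟩ := hoff z.1 z.2 hz
      exact ⟨g, Prod.ext h1 h2⟩
  have hstab : stabilizer G (a, b) = ⊥ := by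
    rw [Subgroup.eq_bot_iff_forall]
    intro g hg
    by_contra hne
    have h2 : 2 ≤ π g := by
      have : ({a, b} : Set Ω) ⊆ fixedBy Ω g := by
        intro z hz
        rcases hz with rfl | rfl
        · exact congrArg Prod.fst hg
        · exact congrArg Prod.snd hg
      calc 2 = ({a, b} : Set Ω).ncard := (Set.ncard_pair hab).symm
        _ ≤ (fixedBy Ω g).ncard := Set.ncard_le_ncard this (Set.toFinite _)
        _ = π g := (Nat.card_coe_set_eq _).symm
    have := hall g hne
    omega
  have hcard : Nat.card G = n * (n - 1) := by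
    have h := index_stabilizer G (a, b)
    rw [hstab, Subgroup.index_bot, horb] at h
    rw [h, ← Nat.card_coe_set_eq]
    have : Nat.card {z : Ω × Ω // z.1 ≠ z.2} = n * n - n := by
      rw [Nat.card_eq_fintype_card, Fintype.card_subtype]
      have he : (Finset.univ.filter fun z : Ω × Ω => z.1 ≠ z.2) = Finset.univ.offDiag := by
        ext z; simp
      rw [he, Finset.offDiag_card, Finset.card_univ]
    rw [Nat.mul_sub_one]
    exact this
  refine ⟨⟨?_, hall⟩, hcard, by rw [hd, Nat.card_eq_fintype_card]; exact_mod_cast heqd⟩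
  have hindex : (stabilizer G a).index = n := by
    rw [index_stabilizer_of_transitive, Nat.card_eq_fintype_card]
  have hne : stabilizer G a ≠ ⊥ := by
    intro h
    rw [h, Subgroup.index_bot, hcard] at hindex
    have : n * 2 ≤ n * (n - 1) := Nat.mul_le_mul_left n (by omega)
    omega
  obtain ⟨g, hg, hg1⟩ := (Subgroup.bot_or_exists_ne_one _).resolve_left hne
  exact ⟨g, hg1, a, hg⟩

end Cfsg.Agent.ClassicalMax
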