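import Mathlib

set_option autoImplicit false
set_option linter.style.haveILetI false

namespace Cfsg.Agent.ClassicalMax

open MulAction

variable {G Ω : Type*} [Group G] [MulAction G Ω]

/-- The pointwise stabiliser of a list inside `H`. -/
def seqStab (H : Subgroup G) : List Ω → Subgroup G
  | [] => H
  | a :: l => seqStab (H ⊓ stabilizer G a) l

/-- `l` is an irredundant base for `H`. -/
def Irred (H : Subgroup G) : List Ω → Prop
  | [] => H = ⊥
  | a :: l => ¬ H ≤ stabilizer G a ∧ Irred (H ⊓ stabilizer G a) l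

lemma mem_seqStab {l : List Ω} : ∀ {H : Subgroup G} {g : G},
    g ∈ seqStab H l ↔ g ∈ H ∧ ∀ a ∈ l, g • a = a := by
  induction l with
  | nil => intro H g; simp [seqStab]
  | cons a l ih => intro H g; simp [seqStab, ih, Subgroup.mem_inf, mem_stabilizer_iff, and_assoc]

lemma Irred.notMem {l : List Ω} : ∀ {H : Subgroup G}, Irred H l → ∀ a, H ≤ stabilizer G a → a ∉ l := by
  induction l with
  | nil => simp
  | cons b l ih =>
    intro H h a ha hmem
    rcases List.mem_cons.mp hmem with rfl | hm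
    · exact h.1 ha
    · exact ih h.2 a (inf_le_left.trans ha) hm

lemma Irred.nodup {l : List Ω} : ∀ {H : Subgroup G}, Irred H l → l.Nodup := by
  induction l with
  | nil => simp
  | cons b l ih =>
    intro H h
    exact List.nodup_cons.mpr ⟨h.2.notMem b inf_le_right, ih h.2⟩

lemma seqStab_perm {l l' : List Ω} (h : l.Perm l') (H : Subgroup G) : seqStab H l = seqStab H l' := by
  ext g; simp [mem_seqStab, h.mem_iff]

lemma Irred.seqStab_eq_bot {l : List Ω} : ∀ {H : Subgroup G}, Irred H l → seqStab H l = ⊥ := by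
  induction l with
  | nil => intro H h; exact h
  | cons a l ih => intro H h; exact ih h.2

/-- Every base sequence contains an irredundant base, which is the whole sequence iff irredundant. -/
lemma exists_irred_of_seqStab {l : List Ω} : ∀ {H : Subgroup G}, seqStab H l = ⊥ →
    ∃ l' : List Ω, Irred H l' ∧ l'.length ≤ l.length ∧ (¬ Irred H l → l'.length < l.length) := by
  induction l with
  | nil => intro H h; exact ⟨[], h, le_rfl, fun hn => absurd h hn⟩
  | cons a l ih =>
    intro H h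
    obtain ⟨l', h1, h2, h3⟩ := ih (H := H ⊓ stabilizer G a) h
    by_cases hle : H ≤ stabilizer G a
    · rw [inf_eq_left.mpr hle] at h1
      exact ⟨l', h1, le_trans h2 (Nat.le_succ _), fun _ => Nat.lt_succ_of_le h2⟩
    · refine ⟨a :: l', ⟨hle, h1⟩, Nat.succ_le_succ h2, fun hn => ?_⟩
      exact Nat.succ_lt_succ (h3 fun hl => hn ⟨hle, hl⟩)

lemma length_eq_of_reorderable [Finite G] : ∀ (n : ℕ) (H : Subgroup G), Nat.card H ≤ n →
    (∀ l l' : List Ω, Irred H l → l.Perm l' → Irred H l') →
    ∀ l l' : List Ω, Irred H l → Irred H l' → l.length = l'.length := by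
  intro n
  induction n with
  | zero => intro H hH; exact absurd hH (by simp [Nat.card_pos.ne'])
  | succ n ih =>
    intro H hH hre l l' hl hl'
    rcases l with _ | ⟨a, l⟩
    · rcases l' with _ | ⟨b, l'⟩
      · rfl
      · exact absurd (le_of_eq_of_le hl bot_le) hl'.1
    rcases l' with _ | ⟨b, l'⟩
    · exact absurd (le_of_eq_of_le hl' bot_le) hl.1
    obtain ⟨ha, hl⟩ := hl
    obtain ⟨hb, hl'⟩ := hl'
    have sub : ∀ c : Ω, ¬ H ≤ stabilizer G c → ∀ l₁ l₂ : List Ω, Irred (H ⊓ stabilizer G c) l₁ →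
        Irred (H ⊓ stabilizer G c) l₂ → l₁.length = l₂.length := by
      intro c hc
      refine ih _ ?_ ?_
      · have hlt : H ⊓ stabilizer G c < H := lt_of_le_of_ne inf_le_left (fun h => hc (inf_eq_left.mp h))
        have : Nat.card ↥(H ⊓ stabilizer G c) < Nat.card H := by
          refine lt_of_le_of_ne (Nat.le_of_dvd Nat.card_pos (Subgroup.card_dvd_of_le hlt.le)) fun h => hlt.ne ?_
          exact Subgroup.eq_of_le_of_card_ge hlt.le h.ge
        omega
      · exact fun l₁ l₂ h hp => (hre (c :: l₁) (c :: l₂) ⟨hc, h⟩ (hp.cons c)).2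
    -- bases starting with `a` and then `b`
    have key : ∀ c d : Ω, ¬ H ≤ stabilizer G c → ¬ H ⊓ stabilizer G c ≤ stabilizer G d →
        ∀ lc ld : List Ω, Irred (H ⊓ stabilizer G c) lc → Irred (H ⊓ stabilizer G d) ld →
        ¬ H ≤ stabilizer G d → lc.length = ld.length := by
      intro c d hc hcd lc ld hlc hld hd
      obtain ⟨m, hm, -, -⟩ := exists_irred_of_seqStab (l := lc) (H := H ⊓ stabilizer G c ⊓ stabilizer G d) (by
        rw [eq_bot_iff]
        intro g hg
        rw [← hlc.seqStab_eq_bot]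
        rw [mem_seqStab] at hg ⊢
        exact ⟨hg.1.1, hg.2⟩)
      have h1 : Irred H (c :: d :: m) := ⟨hc, hcd, hm⟩
      have h2 : Irred H (d :: c :: m) := hre _ _ h1 (List.Perm.swap d c m)
      have e1 := sub c hc lc (d :: m) hlc ⟨hcd, hm⟩
      have e2 := sub d hd ld (c :: m) hld h2.2
      simp only [List.length_cons] at e1 e2
      omega
    simp only [List.length_cons, add_left_inj]
    by_cases hab : H ⊓ stabilizer G a ≤ stabilizer G b
    · by_cases hba : H ⊓ stabilizer G b ≤ stabilizer G a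
      · have heq : H ⊓ stabilizer G a = H ⊓ stabilizer G b :=
          le_antisymm (le_inf inf_le_left hab) (le_inf inf_le_left hba)
        exact sub a ha l l' hl (heq ▸ hl')
      · exact (key b a hb hba l' l hl' hl ha).symm
    · exact key a b ha hab l l' hl hl' hb

/-- All irredundant bases have one size iff irredundant bases can be reordered. -/
theorem irred_length_eq_iff_reorderable [Finite G] :
    (∀ l l' : List Ω, Irred (⊤ : Subgroup G) l → Irred (⊤ : Subgroup G) l' → l.length = l'.length) ↔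
    (∀ l l' : List Ω, Irred (⊤ : Subgroup G) l → l.Perm l' → Irred (⊤ : Subgroup G) l') := by
  constructor
  · intro h l l' hl hp
    by_contra hn
    obtain ⟨m, hm, -, hlt⟩ := exists_irred_of_seqStab (H := (⊤ : Subgroup G)) (l := l')
      ((seqStab_perm hp ⊤).symm.trans hl.seqStab_eq_bot)
    have := h l m hl hm
    have := hlt hn
    have := hp.length_eq
    omega
  · exact fun h => length_eq_of_reorderable _ ⊤ le_rfl h

lemma irred_ofFn_iff : ∀ (t : ℕ) (H : Subgroup G) (f : Fin t → Ω),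
    Irred H (List.ofFn f) ↔ ((∀ g ∈ H, (∀ i : Fin t, g • f i = f i) → g = 1) ∧
      ∀ i : Fin t, ∃ g ∈ H, (∀ j : Fin t, j < i → g • f j = f j) ∧ g • f i ≠ f i) := by
  intro t
  induction t with
  | zero =>
    intro H f
    simp [Irred, Subgroup.eq_bot_iff_forall]
  | succ t ih =>
    intro H f
    rw [List.ofFn_succ]
    simp only [Irred, ih, Subgroup.mem_inf, mem_stabilizer_iff, Fin.forall_fin_succ, SetLike.not_le_iff_exists,
      Fin.succ_lt_succ_iff, Fin.not_lt_zero, IsEmpty.forall_iff, Fin.succ_pos]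
    constructor
    · rintro ⟨⟨g, hg, hg0⟩, h1, h2⟩
      refine ⟨fun x hx hfix => h1 x ⟨hx, hfix.1⟩ hfix.2, ⟨g, hg, by simp, hg0⟩, fun i => ?_⟩
      obtain ⟨x, ⟨hx, hx0⟩, hxj, hxi⟩ := h2 i
      exact ⟨x, hx, ⟨fun _ => hx0, hxj⟩, hxi⟩
    · rintro ⟨h1, ⟨g, hg, -, hg0⟩, h2⟩
      refine ⟨⟨g, hg, hg0⟩, fun x hx hfix => h1 x hx.1 ⟨hx.2, hfix⟩, fun i => ?_⟩
      obtain ⟨x, hx, hxj, hxi⟩ := h2 i
      exact ⟨x, ⟨hx, hxj.1 (by simp)⟩, hxj.2, hxi⟩

lemma irred_top_ofFn_iff (t : ℕ) (f : Fin t → Ω) :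
    Irred (⊤ : Subgroup G) (List.ofFn f) ↔ ((∀ g : G, (∀ i : Fin t, g • f i = f i) → g = 1) ∧
      ∀ i : Fin t, ∃ g : G, (∀ j : Fin t, j < i → g • f j = f j) ∧ g • f i ≠ f i) := by
  simp [irred_ofFn_iff]

end Cfsg.Agent.ClassicalMax
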