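import Mathlib

set_option autoImplicit false

namespace Cfsg.Agent.ClassicalMax

set_option linter.style.haveILetI false

variable (F K : Type*) [Field F] [Field K] [Algebra F K]

/-- Multiplication by the units of `K`, as a hom into `GL_F(K)`. -/
noncomputable abbrev singerHom : Kˣ →* (Module.End F K)ˣ :=
  Units.map ((Algebra.lmul F K : K →ₐ[F] Module.End F K) : K →* Module.End F K)

variable {F K}

lemma singerHom_apply (a : Kˣ) (x : K) :
    ((singerHom F K a : (Module.End F K)ˣ) : Module.End F K) x = (a : K) * x := rfl

lemma singerHom_injective : Function.Injective (singerHom F K) := by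
  intro a b h
  have := congrArg (fun u : (Module.End F K)ˣ => (u : Module.End F K) 1) h
  simp only [singerHom_apply, mul_one] at this
  exact Units.ext this

/-- `a` is conjugated by `g` to another multiplication map. -/
def IsMulTransported (g : (Module.End F K)ˣ) (a c : K) : Prop :=
  ∀ x, (g : Module.End F K) (a * x) = c * (g : Module.End F K) x

lemma unit_apply_inv (g : (Module.End F K)ˣ) (x : K) :
    (g : Module.End F K) (((g⁻¹ : (Module.End F K)ˣ) : Module.End F K) x) = x := by
  rw [← Module.End.mul_apply, Units.mul_inv, Module.End.one_apply]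

lemma unit_inv_apply (g : (Module.End F K)ˣ) (x : K) :
    ((g⁻¹ : (Module.End F K)ˣ) : Module.End F K) ((g : Module.End F K) x) = x := by
  rw [← Module.End.mul_apply, Units.inv_mul, Module.End.one_apply]

lemma unit_apply_one_ne_zero (g : (Module.End F K)ˣ) : (g : Module.End F K) 1 ≠ 0 := by
  intro h
  have h1 := unit_inv_apply g (1 : K)
  rw [h, map_zero] at h1
  exact zero_ne_one h1

lemma conj_singerHom_eq_iff (g : (Module.End F K)ˣ) (a c : Kˣ) :
    g * singerHom F K a * g⁻¹ = singerHom F K c ↔ IsMulTransported g (a : K) (c : K) := by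
  constructor
  · intro h x
    have h' : g * singerHom F K a = singerHom F K c * g := by rw [← h]; group
    have := congrArg (fun u : (Module.End F K)ˣ => (u : Module.End F K) x) h'
    simpa [singerHom_apply] using this
  · intro h
    rw [mul_inv_eq_iff_eq_mul]
    ext x
    simpa [singerHom_apply] using h x

lemma conj_mem_singer_iff (g : (Module.End F K)ˣ) (a : Kˣ) :
    g * singerHom F K a * g⁻¹ ∈ (singerHom F K).range ↔ ∃ c : K, IsMulTransported g (a : K) c := by
  constructor
  · rintro ⟨c, hc⟩
    exact ⟨c, (conj_singerHom_eq_iff g a c).mp hc.symm⟩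
  · rintro ⟨c, hc⟩
    have hc0 : c ≠ 0 := by
      rintro rfl
      have h := hc ((↑a⁻¹ : K))
      rw [Units.mul_inv, zero_mul] at h
      exact unit_apply_one_ne_zero g h
    exact ⟨Units.mk0 c hc0, ((conj_singerHom_eq_iff g a (Units.mk0 c hc0)).mpr hc).symm⟩

/-- The subalgebra of elements transported to multiplications by `g`. -/
def transportSubalgebra (g : (Module.End F K)ˣ) : Subalgebra F K where
  carrier := {a | ∃ c, IsMulTransported g a c}
  mul_mem' := by
    rintro a b ⟨c, hc⟩ ⟨d, hd⟩
    exact ⟨c * d, fun x => by rw [mul_assoc, hc, hd, mul_assoc]⟩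
  add_mem' := by
    rintro a b ⟨c, hc⟩ ⟨d, hd⟩
    exact ⟨c + d, fun x => by rw [add_mul, map_add, hc, hd, add_mul]⟩
  algebraMap_mem' r := ⟨algebraMap F K r, fun x => by
    rw [← Algebra.smul_def, map_smul, Algebra.smul_def]⟩

lemma card_units_of_card [Finite K] : Nat.card Kˣ = Nat.card K - 1 := Nat.card_units K

/-- A semilinear map `x ↦ b * φ x` as a unit of the endomorphism ring. -/
noncomputable def semilinearUnit (b : Kˣ) (φ : K ≃ₐ[F] K) : (Module.End F K)ˣ :=
  singerHom F K b *
    ⟨φ.toLinearMap, φ.symm.toLinearMap, LinearMap.ext fun x => φ.apply_symm_apply x,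
      LinearMap.ext fun x => φ.symm_apply_apply x⟩

lemma semilinearUnit_apply (b : Kˣ) (φ : K ≃ₐ[F] K) (x : K) :
    ((semilinearUnit b φ : (Module.End F K)ˣ) : Module.End F K) x = (b : K) * φ x := rfl

lemma mem_singer_normalizer_iff [Finite K] (g : (Module.End F K)ˣ) :
    g ∈ Subgroup.normalizer ((singerHom F K).range : Set (Module.End F K)ˣ) ↔
      ∃ (b : Kˣ) (φ : K ≃ₐ[F] K), semilinearUnit b φ = g := by
  haveI : FiniteDimensional F K := Module.Finite.of_finite
  haveI : Finite (Module.End F K) := Finite.of_injective (fun f => (f : K → K)) DFunLike.coe_injective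
  constructor
  · intro hg
    rw [Subgroup.mem_normalizer_iff] at hg
    have hall : ∀ a : K, ∃ c, IsMulTransported g a c := by
      intro a
      rcases eq_or_ne a 0 with rfl | ha
      · exact ⟨0, fun x => by simp⟩
      · exact (conj_mem_singer_iff g (Units.mk0 a ha)).mp ((hg _).mp ⟨_, rfl⟩)
    have h1 := unit_apply_one_ne_zero g
    choose c hc using hall
    have hceq : ∀ a d, IsMulTransported g a d → c a = d := by
      intro a d hd
      exact mul_right_cancel₀ h1 ((hc a 1).symm.trans (hd 1))
    let φ₀ : K →ₐ[F] K :=
      { toFun := c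
        map_one' := hceq 1 1 fun x => by simp
        map_mul' := fun a b => hceq _ _ fun x => by rw [mul_assoc, hc a, hc b, mul_assoc]
        map_zero' := hceq 0 0 fun x => by simp
        map_add' := fun a b => hceq _ _ fun x => by rw [add_mul, map_add, hc a, hc b, add_mul]
        commutes' := fun r => hceq _ _ fun x => by
          rw [← Algebra.smul_def, map_smul, Algebra.smul_def] }
    have hinj : Function.Injective φ₀ := φ₀.toRingHom.injective
    refine ⟨Units.mk0 _ h1, AlgEquiv.ofBijective φ₀ (Finite.injective_iff_bijective.mp hinj), ?_⟩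
    ext x
    rw [semilinearUnit_apply]
    simp only [Units.val_mk0, AlgEquiv.coe_ofBijective]
    have := hc x 1
    rw [mul_one] at this
    rw [this, mul_comm]
    rfl
  · rintro ⟨b, φ, rfl⟩
    rw [Subgroup.mem_normalizer_iff_map_conj_eq]
    refine Subgroup.eq_of_le_of_card_ge ?_ ?_
    · rintro y ⟨z, ⟨a, rfl⟩, rfl⟩
      refine ⟨Units.map (φ : K →* K) a, ?_⟩
      symm
      refine (conj_singerHom_eq_iff _ _ _).mpr fun x => ?_
      rw [semilinearUnit_apply, semilinearUnit_apply, map_mul]
      simp [mul_left_comm]
    · exact le_of_eq (Subgroup.card_map_of_injective (MulAut.conj _).injective).symm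

/-- The order of the normalizer of a Singer group. -/
theorem card_singer_normalizer [Fintype F] [Fintype K] :
    Nat.card (Subgroup.normalizer ((singerHom F K).range : Set (Module.End F K)ˣ)) =
      Module.finrank F K * (Fintype.card K - 1) := by
  haveI : FiniteDimensional F K := Module.Finite.of_finite
  have e : Kˣ × (K ≃ₐ[F] K) ≃ Subgroup.normalizer ((singerHom F K).range : Set (Module.End F K)ˣ) := by
    refine Equiv.ofBijective (fun z => ⟨semilinearUnit z.1 z.2, (mem_singer_normalizer_iff _).mpr ⟨_, _, rfl⟩⟩) ⟨?_, ?_⟩
    · intro z z' h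
      have h' := fun x => congrArg (fun u : Subgroup.normalizer ((singerHom F K).range : Set (Module.End F K)ˣ) =>
        ((u : (Module.End F K)ˣ) : Module.End F K) x) h
      simp only [semilinearUnit_apply] at h'
      have hb : z.1 = z'.1 := Units.ext (by simpa using h' 1)
      refine Prod.ext hb (AlgEquiv.ext fun x => ?_)
      have := h' x
      rw [hb] at this
      exact mul_left_cancel₀ z'.1.ne_zero this
    · intro g
      obtain ⟨b, φ, h⟩ := (mem_singer_normalizer_iff (g : (Module.End F K)ˣ)).mp g.2
      exact ⟨(b, φ), Subtype.ext h⟩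
  rw [← Nat.card_congr e, Nat.card_prod, Nat.card_units, IsGalois.card_aut_eq_finrank,
    Nat.card_eq_fintype_card, mul_comm]

/-- Two distinct conjugate Singer groups meet in the multiplicative group of a proper subfield. -/
theorem card_singer_inter [Fintype F] [Fintype K] (g : (Module.End F K)ˣ)
    (hg : ((singerHom F K).range).map (MulAut.conj g).toMonoidHom ≠ (singerHom F K).range) :
    ∃ r : ℕ, 1 ≤ r ∧ r ∣ Module.finrank F K ∧ r < Module.finrank F K ∧
      Nat.card ↥(((singerHom F K).range).map (MulAut.conj g).toMonoidHom ⊓ (singerHom F K).range)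
        ∣ Fintype.card F ^ r - 1 := by
  classical
  haveI : FiniteDimensional F K := Module.Finite.of_finite
  haveI : Finite (Module.End F K) := Finite.of_injective (fun f => (f : K → K)) DFunLike.coe_injective
  let A := transportSubalgebra g
  letI : Field A := (Finite.isDomain_to_isField A).toField
  have hne : A ≠ ⊤ := by
    intro h
    apply hg
    refine Subgroup.eq_of_le_of_card_ge ?_ ?_
    · rintro y ⟨z, ⟨a, rfl⟩, rfl⟩
      refine (conj_mem_singer_iff g a).mpr ?_
      have : (a : K) ∈ A := h ▸ Algebra.mem_top
      exact this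
    · exact le_of_eq (Subgroup.card_map_of_injective (MulAut.conj g).injective).symm
  refine ⟨Module.finrank F A, Module.finrank_pos, ⟨Module.finrank A K, (Module.finrank_mul_finrank F A K).symm⟩, ?_, ?_⟩
  · refine lt_of_le_of_ne (Submodule.finrank_le (Subalgebra.toSubmodule A)) ?_
    intro h
    exact hne (Algebra.toSubmodule_eq_top.mp (Submodule.eq_top_of_finrank_eq h))
  · let S : Subgroup Kˣ :=
      Subgroup.comap ((MulAut.conj g).toMonoidHom.comp (singerHom F K)) (singerHom F K).range
    let f : Aˣ →* S := (Units.map (A.val : A →* K)).codRestrict S fun a =>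
      (conj_mem_singer_iff g _).mpr (a : A).2
    have hf : Function.Bijective f := by
      constructor
      · intro a b h
        have := congrArg (fun z : S => ((z : Kˣ) : K)) h
        exact Units.ext (Subtype.ext this)
      · intro z
        obtain ⟨c, hc⟩ := (conj_mem_singer_iff g (z : Kˣ)).mp z.2
        refine ⟨Units.mk0 (⟨((z : Kˣ) : K), c, hc⟩ : A) ?_, Subtype.ext (Units.ext rfl)⟩
        intro h
        exact (z : Kˣ).ne_zero (congrArg Subtype.val h)
    have e2 : S.map ((MulAut.conj g).toMonoidHom.comp (singerHom F K)) =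
        ((singerHom F K).range).map (MulAut.conj g).toMonoidHom ⊓ (singerHom F K).range := by
      rw [Subgroup.map_comap_eq, MonoidHom.range_comp]
    rw [← e2, Subgroup.card_map_of_injective, ← Nat.card_congr (Equiv.ofBijective f hf),
      Nat.card_units, Module.natCard_eq_pow_finrank (K := F), Nat.card_eq_fintype_card]
    exact (MulAut.conj g).injective.comp singerHom_injective

end Cfsg.Agent.ClassicalMax
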