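import Mathlib
import Cfsg.Agent.ClassicalMax.SymEightTable

set_option autoImplicit false
set_option linter.style.haveILetI false

namespace Cfsg.Agent.ClassicalMax

/-- Decode a permutation of eight points from its base 8 code. -/
def dec8 (c i : ℕ) : ℕ := c / 8 ^ i % 8

lemma dec8_lt (c i : ℕ) : dec8 c i < 8 := Nat.mod_lt _ (by norm_num)

/-- `c ∘ c'` is the identity. -/
def isInvPair (c c' : ℕ) : Bool := (List.range 8).all fun i => dec8 c (dec8 c' i) == i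

/-- The code conditions for preserving the standard tree. -/
def treeTest (f : ℕ → ℕ) : Bool :=
  f 0 / 2 == f 1 / 2 && f 2 / 2 == f 3 / 2 && f 4 / 2 == f 5 / 2 && f 6 / 2 == f 7 / 2 &&
    f 0 / 4 == f 2 / 4 && f 4 / 4 == f 6 / 4

/-- The first generator. -/
def genA : ℕ → ℕ := fun i => if i = 0 then 1 else if i = 1 then 0 else i

/-- The second generator. -/
def genB : ℕ → ℕ := fun i => (i + 1) % 8

/-- The check on a row of the table. -/
def rowOK (e : ℕ × ℕ × ℕ × ℕ × ℕ × ℕ) : Bool :=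
  match e with
  | (r, r', h, h', a, b) =>
    isInvPair r r' && isInvPair r' r && isInvPair h h' && isInvPair h' h &&
    treeTest (dec8 h) && treeTest (fun i => dec8 r' (dec8 h (dec8 r i))) &&
    !((List.range 8).all fun i => dec8 h i == i) &&
    decide (a < 315) && decide (b < 315) &&
    treeTest (fun i => dec8 (symEightTable.getD a default).2.1 (genA (dec8 r i))) &&
    treeTest (fun i => dec8 (symEightTable.getD b default).2.1 (genB (dec8 r i)))

lemma symEightTable_ok : symEightTable.all rowOK = true := by decide +kernel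

lemma symEightTable_length : symEightTable.length = 315 := by decide +kernel

/-- The stabiliser of the standard tree on eight points. -/
def treeGroup : Subgroup (Equiv.Perm (Fin 8)) := Subgroup.closure
  {σ | treeTest (fun i => if h : i < 8 then (σ ⟨i, h⟩ : ℕ) else 0) = true}

/-- Preserving both levels of the tree. -/
def TreeMap (σ : Equiv.Perm (Fin 8)) : Prop :=
  ∀ i j : Fin 8, ((i : ℕ) / 2 = (j : ℕ) / 2 → (σ i : ℕ) / 2 = (σ j : ℕ) / 2) ∧
    ((i : ℕ) / 4 = (j : ℕ) / 4 → (σ i : ℕ) / 4 = (σ j : ℕ) / 4)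

lemma treeMap_of_test (σ : Equiv.Perm (Fin 8))
    (h : treeTest (fun i => if h : i < 8 then (σ ⟨i, h⟩ : ℕ) else 0) = true) : TreeMap σ := by
  simp only [treeTest, Bool.and_eq_true, beq_iff_eq, Nat.reduceLT, ↓reduceDIte] at h
  have h0 : (σ 0 : ℕ) / 2 = (σ 1 : ℕ) / 2 := h.1.1.1.1.1
  have h2 : (σ 2 : ℕ) / 2 = (σ 3 : ℕ) / 2 := h.1.1.1.1.2
  have h4 : (σ 4 : ℕ) / 2 = (σ 5 : ℕ) / 2 := h.1.1.1.2
  have h6 : (σ 6 : ℕ) / 2 = (σ 7 : ℕ) / 2 := h.1.1.2
  have q0 : (σ 0 : ℕ) / 4 = (σ 2 : ℕ) / 4 := h.1.2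
  have q4 : (σ 4 : ℕ) / 4 = (σ 6 : ℕ) / 4 := h.2
  intro i j
  refine ⟨fun hij => ?_, fun hij => ?_⟩ <;> fin_cases i <;> fin_cases j <;>
    first
    | (exfalso; revert hij; decide)
    | (simp only [Fin.zero_eta, Fin.mk_one, Fin.reduceFinMk] at * <;> omega)

lemma treeMap_of_mem {σ : Equiv.Perm (Fin 8)} (hσ : σ ∈ treeGroup) : TreeMap σ := by
  rw [treeGroup, ← Subgroup.mem_toSubmonoid, Subgroup.closure_toSubmonoid_of_finite] at hσ
  induction hσ using Submonoid.closure_induction with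
  | mem x hx => exact treeMap_of_test x hx
  | one => exact fun i j => ⟨id, id⟩
  | mul x y _ _ hx hy =>
    exact fun i j => ⟨fun h => (hx _ _).1 ((hy i j).1 h), fun h => (hx _ _).2 ((hy i j).2 h)⟩

lemma mem_treeGroup {σ : Equiv.Perm (Fin 8)} {f : ℕ → ℕ} (h : treeTest f = true)
    (hσ : ∀ i : Fin 8, (σ i : ℕ) = f i) : σ ∈ treeGroup := by
  apply Subgroup.subset_closure
  simp only [Set.mem_setOf_eq, treeTest, Nat.reduceLT, ↓reduceDIte, hσ] at h ⊢
  exact h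

lemma eight_pair {a a' b b' : ℕ} (h : a = a') (h₁ : b / 2 = a / 2) (h₂ : b ≠ a)
    (h₃ : b' / 2 = a' / 2) (h₄ : b' ≠ a') : b = b' := by omega

lemma eight_quad {a a' b b' : ℕ} (h : a = a') (h₁ : b / 4 = a / 4) (h₂ : b / 2 ≠ a / 2)
    (h₃ : b' / 4 = a' / 4) (h₄ : b' / 2 ≠ a' / 2) (h₅ : b % 2 = b' % 2) : b = b' := by omega

lemma eight_half {a a' b b' : ℕ} (h : a = a') (h₁ : b / 4 ≠ a / 4) (h₂ : b' / 4 ≠ a' / 4)
    (h₅ : b % 4 = b' % 4) (hb : b < 8) (hb' : b' < 8) (ha : a < 8) : b = b' := by omega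

lemma card_treeGroup_le : Nat.card treeGroup ≤ 128 := by
  let F : treeGroup → Fin 8 × Fin 2 × Fin 4 × Fin 2 := fun σ =>
    ((σ : Equiv.Perm (Fin 8)) 0, ⟨((σ : Equiv.Perm (Fin 8)) 2 : ℕ) % 2, by omega⟩,
      ⟨((σ : Equiv.Perm (Fin 8)) 4 : ℕ) % 4, by omega⟩, ⟨((σ : Equiv.Perm (Fin 8)) 6 : ℕ) % 2, by omega⟩)
  refine (Nat.card_le_card_of_injective F ?_).trans (by simp)
  rintro ⟨σ, hσ⟩ ⟨τ, hτ⟩ h
  simp only [F, Prod.mk.injEq, Fin.mk.injEq, Fin.ext_iff] at h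
  obtain ⟨e0, e2, e4, e6⟩ := h
  have ts := treeMap_of_mem hσ
  have tt := treeMap_of_mem hτ
  have ne : ∀ (π : Equiv.Perm (Fin 8)) (i j : Fin 8), i ≠ j → (π i : ℕ) ≠ (π j : ℕ) :=
    fun π i j hij h => hij (π.injective (Fin.ext h))
  have pr : ∀ π, TreeMap π →
      ((π 1 : ℕ) / 2 = (π 0 : ℕ) / 2 ∧ (π 1 : ℕ) ≠ (π 0 : ℕ)) ∧
      ((π 3 : ℕ) / 2 = (π 2 : ℕ) / 2 ∧ (π 3 : ℕ) ≠ (π 2 : ℕ)) ∧
      ((π 5 : ℕ) / 2 = (π 4 : ℕ) / 2 ∧ (π 5 : ℕ) ≠ (π 4 : ℕ)) ∧
      ((π 7 : ℕ) / 2 = (π 6 : ℕ) / 2 ∧ (π 7 : ℕ) ≠ (π 6 : ℕ)) :=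
    fun π t => ⟨⟨(t 1 0).1 rfl, ne π _ _ (by decide)⟩, ⟨(t 3 2).1 rfl, ne π _ _ (by decide)⟩,
      ⟨(t 5 4).1 rfl, ne π _ _ (by decide)⟩, ⟨(t 7 6).1 rfl, ne π _ _ (by decide)⟩⟩
  have two : ∀ π, TreeMap π → (π 2 : ℕ) / 4 = (π 0 : ℕ) / 4 ∧ (π 2 : ℕ) / 2 ≠ (π 0 : ℕ) / 2 := by
    intro π t
    refine ⟨(t 2 0).2 rfl, ?_⟩
    have := (pr π t).1
    have := ne π 2 0 (by decide)
    have := ne π 2 1 (by decide)
    omega
  have six : ∀ π, TreeMap π → (π 6 : ℕ) / 4 = (π 4 : ℕ) / 4 ∧ (π 6 : ℕ) / 2 ≠ (π 4 : ℕ) / 2 := by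
    intro π t
    refine ⟨(t 6 4).2 rfl, ?_⟩
    have := (pr π t).2.2.1
    have := ne π 6 4 (by decide)
    have := ne π 6 5 (by decide)
    omega
  have four : ∀ π, TreeMap π → (π 4 : ℕ) / 4 ≠ (π 0 : ℕ) / 4 := by
    intro π t
    have := (pr π t).1
    have := (pr π t).2.1
    have := two π t
    have := ne π 4 0 (by decide)
    have := ne π 4 1 (by decide)
    have := ne π 4 2 (by decide)
    have := ne π 4 3 (by decide)
    omega
  obtain ⟨⟨a1, a1'⟩, ⟨a3, a3'⟩, ⟨a5, a5'⟩, a7, a7'⟩ := pr σ ts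
  obtain ⟨⟨b1, b1'⟩, ⟨b3, b3'⟩, ⟨b5, b5'⟩, b7, b7'⟩ := pr τ tt
  obtain ⟨a2, a2'⟩ := two σ ts
  obtain ⟨b2, b2'⟩ := two τ tt
  obtain ⟨a6, a6'⟩ := six σ ts
  obtain ⟨b6, b6'⟩ := six τ tt
  have a4 := four σ ts
  have b4 := four τ tt
  have c1 := eight_pair e0 a1 a1' b1 b1'
  have c2 := eight_quad e0 a2 a2' b2 b2' e2
  have c3 := eight_pair c2 a3 a3' b3 b3'
  have c4 := eight_half e0 a4 b4 e4 (σ 4).isLt (τ 4).isLt (σ 0).isLt
  have c5 := eight_pair c4 a5 a5' b5 b5'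
  have c6 := eight_quad c4 a6 a6' b6 b6' e6
  have c7 := eight_pair c6 a7 a7' b7 b7'
  refine Subtype.ext (Equiv.ext fun i => ?_)
  fin_cases i <;> apply Fin.ext <;> assumption

/-- The permutation coded by a pair of inverse codes. -/
def codePerm (c c' : ℕ) (h₁ : isInvPair c c' = true) (h₂ : isInvPair c' c = true) : Equiv.Perm (Fin 8) where
  toFun i := ⟨dec8 c i, dec8_lt _ _⟩
  invFun i := ⟨dec8 c' i, dec8_lt _ _⟩
  left_inv i := Fin.ext (by simpa [isInvPair] using (List.all_eq_true.mp h₂) i (List.mem_range.mpr i.isLt))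
  right_inv i := Fin.ext (by simpa [isInvPair] using (List.all_eq_true.mp h₁) i (List.mem_range.mpr i.isLt))

lemma codePerm_apply (c c' : ℕ) (h₁ : isInvPair c c' = true) (h₂ : isInvPair c' c = true) (i : Fin 8) :
    (codePerm c c' h₁ h₂ i : ℕ) = dec8 c i := rfl

lemma codePerm_inv_apply (c c' : ℕ) (h₁ : isInvPair c c' = true) (h₂ : isInvPair c' c = true) (i : Fin 8) :
    ((codePerm c c' h₁ h₂)⁻¹ i : ℕ) = dec8 c' i := rfl

lemma rows (k : Fin 315) :
    let e := symEightTable.getD k default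
    ∃ (h₁ : isInvPair e.1 e.2.1 = true) (h₂ : isInvPair e.2.1 e.1 = true)
      (h₃ : isInvPair e.2.2.1 e.2.2.2.1 = true) (h₄ : isInvPair e.2.2.2.1 e.2.2.1 = true),
      treeTest (dec8 e.2.2.1) = true ∧
      treeTest (fun i => dec8 e.2.1 (dec8 e.2.2.1 (dec8 e.1 i))) = true ∧
      ¬ (∀ i < 8, dec8 e.2.2.1 i = i) ∧ e.2.2.2.2.1 < 315 ∧ e.2.2.2.2.2 < 315 ∧
      treeTest (fun i => dec8 (symEightTable.getD e.2.2.2.2.1 default).2.1 (genA (dec8 e.1 i))) = true ∧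
      treeTest (fun i => dec8 (symEightTable.getD e.2.2.2.2.2 default).2.1 (genB (dec8 e.1 i))) = true := by
  intro e
  have hk : (k : ℕ) < symEightTable.length := by rw [symEightTable_length]; exact k.isLt
  have hmem : e ∈ symEightTable := by
    simp only [e, List.getD_eq_getElem _ _ hk]
    exact List.getElem_mem hk
  have h := List.all_eq_true.mp symEightTable_ok e hmem
  revert h
  generalize e = e'
  obtain ⟨r, r', h, h', a, b⟩ := e'
  simp only [rowOK, Bool.and_eq_true, decide_eq_true_eq, Bool.not_eq_true', ← Bool.not_eq_true,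
    List.all_eq_true, List.mem_range, beq_iff_eq]
  rintro ⟨⟨⟨⟨⟨⟨⟨⟨⟨⟨h₁, h₂⟩, h₃⟩, h₄⟩, h₅⟩, h₆⟩, h₇⟩, h₈⟩, h₉⟩, h₁₀⟩, h₁₁⟩
  exact ⟨h₁, h₂, h₃, h₄, h₅, h₆, h₇, h₈, h₉, h₁₀, h₁₁⟩

/-- The k-th coset representative. -/
def repr8 (k : Fin 315) : Equiv.Perm (Fin 8) :=
  codePerm (symEightTable.getD k default).1 (symEightTable.getD k default).2.1 (rows k).choose (rows k).choose_spec.choose

lemma repr8_apply (k : Fin 315) (i : Fin 8) :
    (repr8 k i : ℕ) = dec8 (symEightTable.getD k default).1 i := rfl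

lemma repr8_inv_apply (k : Fin 315) (i : Fin 8) :
    ((repr8 k)⁻¹ i : ℕ) = dec8 (symEightTable.getD k default).2.1 i := rfl

lemma exists_repr_mem (x : Equiv.Perm (Fin 8)) : ∃ k, (repr8 k)⁻¹ * x ∈ treeGroup := by
  have key : ∀ y : Equiv.Perm (Fin 8), ∀ k, ∃ k', (repr8 k')⁻¹ * y * repr8 k ∈ treeGroup := by
    intro y
    have hgen : Subgroup.closure ({finRotate 8, Equiv.swap (0 : Fin 8) (finRotate 8 0)} : Set (Equiv.Perm (Fin 8))) = ⊤ :=
      Equiv.Perm.closure_cycle_adjacent_swap isCycle_finRotate support_finRotate 0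
    have hy : y ∈ Submonoid.closure ({finRotate 8, Equiv.swap (0 : Fin 8) (finRotate 8 0)} : Set (Equiv.Perm (Fin 8))) := by
      rw [← Subgroup.closure_toSubmonoid_of_finite, hgen]
      trivial
    induction hy using Submonoid.closure_induction with
    | mem z hz =>
      intro k
      obtain ⟨-, -, -, -, -, -, -, hA, hB, gA, gB⟩ := rows k
      rcases hz with rfl | hz
      · refine ⟨⟨_, hB⟩, mem_treeGroup gB fun i => ?_⟩
        rw [Equiv.Perm.mul_apply, Equiv.Perm.mul_apply, repr8_inv_apply]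
        congr 1
        rw [← repr8_apply k i]
        generalize repr8 k i = j
        fin_cases j <;> rfl
      · rw [Set.mem_singleton_iff] at hz
        subst hz
        refine ⟨⟨_, hA⟩, mem_treeGroup gA fun i => ?_⟩
        rw [Equiv.Perm.mul_apply, Equiv.Perm.mul_apply, repr8_inv_apply]
        congr 1
        rw [← repr8_apply k i]
        generalize repr8 k i = j
        fin_cases j <;> rfl
    | one => intro k; exact ⟨k, by simp [treeGroup.one_mem]⟩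
    | mul u v _ _ hu hv =>
      intro k
      obtain ⟨k', hk'⟩ := hv k
      obtain ⟨k'', hk''⟩ := hu k'
      exact ⟨k'', by simpa [mul_assoc] using treeGroup.mul_mem hk'' hk'⟩
  obtain ⟨k', hk'⟩ := key (x * (repr8 0)⁻¹) 0
  exact ⟨k', by simpa [mul_assoc] using hk'⟩

lemma card_treeGroup : Nat.card treeGroup = 128 := by
  refine le_antisymm card_treeGroup_le ?_
  have hsurj : Function.Surjective (fun k : Fin 315 => (QuotientGroup.mk (repr8 k) : Equiv.Perm (Fin 8) ⧸ treeGroup)) := by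
    intro q
    induction q using QuotientGroup.induction_on with
    | H x =>
      obtain ⟨k, hk⟩ := exists_repr_mem x
      exact ⟨k, QuotientGroup.eq.mpr hk⟩
  have h1 : treeGroup.index ≤ 315 := by
    simpa [Subgroup.index_eq_card] using Nat.card_le_card_of_surjective _ hsurj
  have h2 := Subgroup.card_mul_index treeGroup
  rw [Nat.card_perm, Nat.card_fin] at h2
  have h3 : Nat.factorial 8 = 40320 := by decide
  rw [h3] at h2
  have := Nat.mul_le_mul_left (Nat.card treeGroup) h1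
  omega

/-- The stabiliser of the tree meets all its conjugates non-trivially. -/
lemma treeGroup_inf_conj_ne_bot (y : Equiv.Perm (Fin 8)) :
    ∃ h : Equiv.Perm (Fin 8), h ≠ 1 ∧ h ∈ treeGroup ∧ y⁻¹ * h * y ∈ treeGroup := by
  obtain ⟨k, hk⟩ := exists_repr_mem y
  obtain ⟨-, -, h₃, h₄, h₅, h₆, h₇, -⟩ := rows k
  refine ⟨codePerm _ _ h₃ h₄, ?_, mem_treeGroup h₅ (fun i => rfl), ?_⟩
  · intro h
    exact h₇ fun i hi => by
      have := congrArg (fun σ : Equiv.Perm (Fin 8) => (σ ⟨i, hi⟩ : ℕ)) h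
      simpa [codePerm_apply] using this
  · have hmid : (repr8 k)⁻¹ * codePerm _ _ h₃ h₄ * repr8 k ∈ treeGroup :=
      mem_treeGroup h₆ (fun i => rfl)
    have h := treeGroup.mul_mem (treeGroup.mul_mem (treeGroup.inv_mem hk) hmid) hk
    simpa [mul_assoc] using h

/-- Any two Sylow 2-subgroups of the symmetric group on eight points meet non-trivially. -/
theorem symEight_sylow_two_meet (H : Sylow 2 (Equiv.Perm (Fin 8))) (x : Equiv.Perm (Fin 8)) :
    (H : Subgroup (Equiv.Perm (Fin 8))) ⊓ (H : Subgroup (Equiv.Perm (Fin 8))).map (MulAut.conj x).toMonoidHom ≠ ⊥ := by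
  have hcard : Nat.card treeGroup = 2 ^ (Nat.card (Equiv.Perm (Fin 8))).factorization 2 := by
    rw [card_treeGroup]
    have h1 : Nat.card (Equiv.Perm (Fin 8)) = 2 ^ 7 * 315 := by
      rw [Nat.card_perm, Nat.card_fin]
      decide
    rw [h1, Nat.factorization_mul (by norm_num) (by norm_num), Finsupp.add_apply,
      Nat.Prime.factorization_pow Nat.prime_two, Finsupp.single_eq_same,
      Nat.factorization_eq_zero_of_not_dvd (by norm_num : ¬ 2 ∣ 315)]
    norm_num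
  obtain ⟨g, hg⟩ := MulAction.exists_smul_eq (Equiv.Perm (Fin 8)) (Sylow.ofCard treeGroup hcard) H
  have hH : ∀ z, z ∈ (H : Subgroup (Equiv.Perm (Fin 8))) ↔ g⁻¹ * z * g ∈ treeGroup := by
    intro z
    rw [← hg, Sylow.coe_subgroup_smul, Sylow.coe_ofCard, Subgroup.mem_pointwise_smul_iff_inv_smul_mem]
    simp [MulAut.smul_def, MulAut.conj_inv_apply]
  obtain ⟨h, h1, hmem, hmem'⟩ := treeGroup_inf_conj_ne_bot (g⁻¹ * x * g)
  intro hbot
  have : g * h * g⁻¹ ∈ (H : Subgroup (Equiv.Perm (Fin 8))) ⊓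
      (H : Subgroup (Equiv.Perm (Fin 8))).map (MulAut.conj x).toMonoidHom := by
    refine ⟨(hH _).mpr (by simpa [mul_assoc] using hmem), x⁻¹ * (g * h * g⁻¹) * x, ?_, ?_⟩
    · exact (hH _).mpr (by simpa [mul_assoc] using hmem')
    · simp [MulAut.conj_apply, mul_assoc]
  rw [hbot, Subgroup.mem_bot] at this
  exact h1 (by simpa [mul_inv_eq_one] using this)

end Cfsg.Agent.ClassicalMax
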