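import Cfsg.Agent.ClassicalMax.FormProper
import Cfsg.Agent.Linear.Symplectic
import Cfsg.Agent.Forms.Alternating
import Cfsg.Agent.Forms.SympGen

/-!
The symplectic group lies in no geometric member relative to its form.
-/

set_option autoImplicit false
set_option linter.style.haveILetI false

namespace Cfsg.Agent.ClassicalMax

open Matrix Cfsg.Geo Cfsg.Agent.Forms
open scoped MatrixGroups Matrix commutatorElement

variable {F : Type*} [Field F] {m : ℕ}

/-- The symplectic transvection as an element of `GL`. -/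
noncomputable def spTau (v : Fin m ⊕ Fin m → F) (c : F) : GL (Fin m ⊕ Fin m) F :=
  (Linear.Symp.toSpGL (Linear.Symp.tau v c) : Cfsg.spGL m F).1

theorem spTau_mem (v : Fin m ⊕ Fin m → F) (c : F) : spTau v c ∈ Cfsg.spGL m F :=
  (Linear.Symp.toSpGL (Linear.Symp.tau v c) : Cfsg.spGL m F).2

theorem spTau_mulVec (v : Fin m ⊕ Fin m → F) (c : F) (x : Fin m ⊕ Fin m → F) :
    (spTau v c : Matrix (Fin m ⊕ Fin m) (Fin m ⊕ Fin m) F) *ᵥ x = x + (c * Cfsg.sympForm m F x v) • v :=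
  sympTransvection_mulVec v c x

theorem spTau_coe (v : Fin m ⊕ Fin m → F) (c : F) :
    (spTau v c : Matrix (Fin m ⊕ Fin m) (Fin m ⊕ Fin m) F) =
      1 + c • Matrix.vecMulVec v (Matrix.J (Fin m) F *ᵥ v) := rfl

/-- `x ↦ f(x, v)`. -/
noncomputable def sympDual (v : Fin m ⊕ Fin m → F) : (Fin m ⊕ Fin m → F) →ₗ[F] F :=
  (sympBil m F).flip v

theorem sympDual_apply (v x : Fin m ⊕ Fin m → F) : sympDual v x = Cfsg.sympForm m F x v :=
  sympBil_apply x v

theorem exists_sympForm_ne_zero {v : Fin m ⊕ Fin m → F} (hv : v ≠ 0) :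
    ∃ x, Cfsg.sympForm m F x v ≠ 0 := by
  by_contra hc
  push Not at hc
  exact hv (sympBil_nondegenerate.2 v fun x => by rw [sympBil_apply]; exact hc x)

theorem sympDual_ne_zero {v : Fin m ⊕ Fin m → F} (hv : v ≠ 0) : sympDual v ≠ 0 := by
  intro h
  obtain ⟨x, hx⟩ := exists_sympForm_ne_zero hv
  exact hx (by rw [← sympDual_apply, h, LinearMap.zero_apply])

theorem spTau_isTransvec (v : Fin m ⊕ Fin m → F) (c : F) :
    IsTransvec (spTau v c) (c • sympDual v) v where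
  centre := by simp [sympDual_apply, sympForm_self]
  apply_eq u := by simp [spTau_mulVec, sympDual_apply]

theorem spTau_ne_one {v : Fin m ⊕ Fin m → F} (hv : v ≠ 0) {c : F} (hc : c ≠ 0) : spTau v c ≠ 1 := by
  intro h
  rcases (spTau_isTransvec v c).eq_one_iff.mp h with h0 | h0
  · exact sympDual_ne_zero hv ((smul_eq_zero.mp h0).resolve_left hc)
  · exact hv h0

theorem exists_ne_zero_vec (hm : 0 < m) : ∃ v : Fin m ⊕ Fin m → F, v ≠ 0 :=
  ⟨Pi.single (.inl ⟨0, hm⟩) 1, by simp⟩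

theorem spGL_commutator [Fintype F] (h : 3 ≤ m ∨ (m = 2 ∧ 3 ≤ Fintype.card F) ∨ 4 ≤ Fintype.card F) :
    ⁅Cfsg.spGL m F, Cfsg.spGL m F⁆ = Cfsg.spGL m F := by
  let j : Matrix.symplecticGroup (Fin m) F →* GL (Fin m ⊕ Fin m) F :=
    (Cfsg.spGL m F).subtype.comp (Linear.Symp.toSpGL (F := F) (m := m)).toMonoidHom
  have hj : (⊤ : Subgroup (Matrix.symplecticGroup (Fin m) F)).map j = Cfsg.spGL m F := by
    ext g
    constructor
    · rintro ⟨x, -, rfl⟩
      exact (Linear.Symp.toSpGL x).2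
    · intro hg
      exact ⟨Linear.Symp.toSpGL.symm ⟨g, hg⟩, trivial, by simp [j]⟩
  conv_rhs => rw [← hj, ← Linear.Symp.commutator_eq_top h, commutator_def, Subgroup.map_commutator]
  rw [hj]

theorem spGL_not_le_stabilizer {W : Submodule F (Fin m ⊕ Fin m → F)} (hb : W ≠ ⊥) (ht : W ≠ ⊤) :
    ¬ Cfsg.spGL m F ≤ subspaceStabilizer W := by
  intro hle
  obtain ⟨w, hw, hw0⟩ := Submodule.exists_mem_ne_zero_of_ne_bot hb
  have key : ∀ v, Cfsg.sympForm m F w v ≠ 0 → v ∈ W := by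
    intro v hv
    have h := (GeoClasses.mem_subspaceStabilizer_iff.mp (hle (spTau_mem v 1)) w).mp hw
    rw [spTau_mulVec, one_mul] at h
    have := W.smul_mem (Cfsg.sympForm m F w v)⁻¹ (W.sub_mem h hw)
    rwa [add_sub_cancel_left, inv_smul_smul₀ hv] at this
  obtain ⟨u, hu⟩ := exists_sympForm_ne_zero hw0
  have hu' : Cfsg.sympForm m F w u ≠ 0 := by rw [sympForm_swap]; simpa using hu
  apply ht
  rw [eq_top_iff]
  intro v _
  by_cases hv : Cfsg.sympForm m F w v = 0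
  · have := key (v + u) (by rw [← sympBil_apply, map_add, sympBil_apply, sympBil_apply, hv, zero_add]; exact hu')
    simpa using W.sub_mem this (key u hu')
  · exact key v hv

theorem spGL_not_le_decompositionStabilizer {t k : ℕ} {D : Fin t → Submodule F (Fin m ⊕ Fin m → F)}
    (hD : IsMDecomposition k D) (hk : 2 ≤ k) : ¬ Cfsg.spGL m F ≤ decompositionStabilizer D := by
  intro hle
  have key : ∀ v, ∃ i, v ∈ D i := by
    intro v
    by_cases hv : v = 0
    · exact ⟨⟨0, by have := hD.two_le; omega⟩, hv ▸ zero_mem _⟩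
    · obtain ⟨i, j, hmem, heq⟩ := transvec_centre_mem_sup hD (spTau_isTransvec v 1)
        (by rw [one_smul]; exact sympDual_ne_zero hv) (hle (spTau_mem v 1))
      obtain rfl := heq hk
      exact ⟨i, by simpa using hmem⟩
  have ht := hD.two_le
  have hne : ∀ i, ∃ x ∈ D i, x ≠ 0 := fun i => Submodule.exists_mem_ne_zero_of_ne_bot fun h => by
    have := hD.finrank_eq i
    rw [h, finrank_bot] at this
    exact hD.pos.ne this
  have h01 : (⟨0, by omega⟩ : Fin t) ≠ ⟨1, by omega⟩ := by simp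
  obtain ⟨x, hx, hx0⟩ := hne ⟨0, by omega⟩
  obtain ⟨y, hy, hy0⟩ := hne ⟨1, by omega⟩
  have hd := fun i => Submodule.disjoint_def.mp (hD.indep i)
  have hy' : y ∈ ⨆ (j) (_ : j ≠ (⟨0, by omega⟩ : Fin t)), D j :=
    Submodule.mem_iSup_of_mem _ (Submodule.mem_iSup_of_mem (Ne.symm h01) hy)
  obtain ⟨i, hi⟩ := key (x + y)
  by_cases h0 : i = ⟨0, by omega⟩
  · subst h0
    exact hy0 (hd _ y (by simpa using Submodule.sub_mem _ hi hx) hy')
  · have hi' : x + y ∈ ⨆ (j) (_ : j ≠ (⟨0, by omega⟩ : Fin t)), D j :=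
      Submodule.mem_iSup_of_mem i (Submodule.mem_iSup_of_mem h0 hi)
    exact hx0 (hd _ x hx (by simpa using Submodule.sub_mem _ hi' hy'))

theorem spGL_not_le_subalgebraNormalizer [Finite F] (hm : 2 ≤ m) {r : ℕ} (hr : 1 < r)
    {K : Subalgebra F (Matrix (Fin m ⊕ Fin m) (Fin m ⊕ Fin m) F)} (hK : IsFieldSubalgebra r K) :
    ¬ Cfsg.spGL m F ≤ subalgebraNormalizer K := by
  intro hle
  obtain ⟨v, hv⟩ := exists_ne_zero_vec (F := F) (m := m) (by omega)
  exact transvec_not_mem_subalgebraNormalizer (by rw [Fintype.card_sum, Fintype.card_fin]; omega) hr hK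
    (spTau_isTransvec v 1) (by rw [one_smul]; exact sympDual_ne_zero hv) hv (hle (spTau_mem v 1))

theorem spGL_not_le_tensorProductSubgroup (hm : 0 < m) {n₁ n₂ : ℕ} (h1 : 2 ≤ n₁) (h2 : 2 ≤ n₂)
    (e : (Fin m ⊕ Fin m) ≃ Fin n₁ × Fin n₂) (P : GL (Fin m ⊕ Fin m) F) :
    ¬ Cfsg.spGL m F ≤ tensorProductSubgroup n₁ n₂ e P := by
  intro hle
  obtain ⟨v, hv⟩ := exists_ne_zero_vec (F := F) hm
  exact transvec_not_mem_tensorProductSubgroup h1 h2 e P (spTau_isTransvec v 1)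
    (spTau_ne_one hv one_ne_zero) (hle (spTau_mem v 1))

theorem spGL_not_le_subfieldSubgroup (hm : 0 < m) (hperf : ⁅Cfsg.spGL m F, Cfsg.spGL m F⁆ = Cfsg.spGL m F)
    {F₀ : Subfield F} (hF₀ : F₀ ≠ ⊤) (P : GL (Fin m ⊕ Fin m) F) :
    ¬ Cfsg.spGL m F ≤ subfieldSubgroup F₀ P := by
  intro hle
  obtain ⟨v, hv⟩ := exists_ne_zero_vec (F := F) hm
  obtain ⟨w, hw⟩ := exists_sympForm_ne_zero hv
  set s := Cfsg.sympForm m F w v with hs
  have htr : ∀ c d : F, ((spTau v c * spTau w d : GL (Fin m ⊕ Fin m) F) :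
      Matrix (Fin m ⊕ Fin m) (Fin m ⊕ Fin m) F).trace = (Fintype.card (Fin m ⊕ Fin m) : F) - c * d * s ^ 2 := by
    intro c d
    have e0 : ∀ u : Fin m ⊕ Fin m → F, u ⬝ᵥ (Matrix.J (Fin m) F *ᵥ u) = 0 := fun u => by
      rw [dotProduct_comm]; exact J_mulVec_dot_self u
    have e1 : (Matrix.J (Fin m) F *ᵥ v) ⬝ᵥ w = s := by rw [dotProduct_comm]; rfl
    have e2 : v ⬝ᵥ (Matrix.J (Fin m) F *ᵥ w) = -s := by
      show Cfsg.sympForm m F v w = -s
      rw [sympForm_swap]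
    simp only [Units.val_mul, spTau_coe, add_mul, mul_add, one_mul, mul_one, Matrix.smul_mul, Matrix.mul_smul,
      smul_smul, Matrix.trace_add, Matrix.trace_smul, Matrix.trace_one, Matrix.vecMulVec_mul_vecMulVec,
      Matrix.trace_vecMulVec, dotProduct_smul, e0, e1, e2, smul_eq_mul]
    ring
  apply hF₀
  rw [eq_top_iff]
  intro a _
  have h1 := trace_mem_of_perfect hperf hle (mul_mem (spTau_mem v (a / s ^ 2)) (spTau_mem w 1))
  have h0 := trace_mem_of_perfect hperf hle (mul_mem (spTau_mem v 0) (spTau_mem w 1))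
  rw [htr] at h1 h0
  have := F₀.sub_mem h0 h1
  rwa [zero_mul, zero_mul, sub_zero, sub_sub_cancel, mul_one, div_mul_cancel₀ _ (pow_ne_zero 2 hw)] at this

theorem spGL_not_le_quadSimilarityGroup (hm : 2 ≤ m) {Q : (Fin m ⊕ Fin m → F) → F}
    (hpol : ∀ u v, QuadraticMap.polar Q u v = Cfsg.sympForm m F u v) :
    ¬ Cfsg.spGL m F ≤ quadSimilarityGroup Q := by
  intro hle
  have hval : ∀ v : Fin m ⊕ Fin m → F, v ≠ 0 → Q v = -1 := by
    intro v hv
    obtain ⟨x₀, hx₀⟩ := exists_sympForm_ne_zero hv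
    obtain ⟨x, hx⟩ : ∃ x, Cfsg.sympForm m F x v = 1 := by
      refine ⟨(Cfsg.sympForm m F x₀ v)⁻¹ • x₀, ?_⟩
      rw [← sympBil_apply, map_smul, LinearMap.smul_apply, smul_eq_mul, sympBil_apply, inv_mul_cancel₀ hx₀]
    obtain ⟨μ, hμ⟩ := hle (spTau_mem v 1)
    have e : QuadraticMap.polar Q ((spTau v 1 : Matrix (Fin m ⊕ Fin m) (Fin m ⊕ Fin m) F) *ᵥ x)
        ((spTau v 1 : Matrix (Fin m ⊕ Fin m) (Fin m ⊕ Fin m) F) *ᵥ v) = (μ : F) * QuadraticMap.polar Q x v := by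
      simp only [QuadraticMap.polar, ← Matrix.mulVec_add, hμ]
      ring
    have hpres : Cfsg.sympForm m F ((spTau v 1 : Matrix (Fin m ⊕ Fin m) (Fin m ⊕ Fin m) F) *ᵥ x)
        ((spTau v 1 : Matrix (Fin m ⊕ Fin m) (Fin m ⊕ Fin m) F) *ᵥ v) = Cfsg.sympForm m F x v := spTau_mem v 1 x v
    rw [hpol, hpol, hpres, hx, mul_one] at e
    have h1 := hμ x
    rw [← e, one_mul, spTau_mulVec, one_mul, hx, one_smul] at h1
    have h2 := hpol x v
    rw [QuadraticMap.polar, h1, hx] at h2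
    linear_combination -h2
  let i : Fin m := ⟨0, by omega⟩
  let j : Fin m := ⟨1, by omega⟩
  have hij : i ≠ j := by simp [i, j]
  set u : Fin m ⊕ Fin m → F := Pi.single (Sum.inl i) 1
  set w : Fin m ⊕ Fin m → F := Pi.single (Sum.inl j) 1
  have hu : u ≠ 0 := by simp [u]
  have hw : w ≠ 0 := by simp [w]
  have huw : u + w ≠ 0 := fun h => by
    have := congrFun h (Sum.inl i)
    simp [u, w, hij, hij.symm] at this
  have hf : Cfsg.sympForm m F u w = 0 := by
    rw [sympForm_apply]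
    exact Finset.sum_eq_zero fun k _ => by simp [u, w]
  have h := hpol u w
  rw [QuadraticMap.polar, hval u hu, hval w hw, hval _ huw, hf] at h
  exact one_ne_zero (show (1 : F) = 0 by linear_combination h)

/-- With parameters of different squares the root group normalises no class-two group. -/
theorem spGL_not_le_subgroupNormalizer (hm : 2 ≤ m) (hn : ((m + m : ℕ) : F) ≠ 0)
    {R : Subgroup (GL (Fin m ⊕ Fin m) F)} (hirr : ActsAbsolutelyIrreducibly (matrixSet R))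
    (hcl : commutator R ≤ Subgroup.center R)
    (hscal : ∀ z ∈ Subgroup.center R, ∃ c : F,
      ((z : GL (Fin m ⊕ Fin m) F) : Matrix (Fin m ⊕ Fin m) (Fin m ⊕ Fin m) F) = c • 1)
    (hc : ∃ c : F, c ≠ 0 ∧ c ^ 2 ≠ 1) : ¬ Cfsg.spGL m F ≤ subgroupNormalizer R := by
  intro hle
  obtain ⟨v, hv⟩ := exists_ne_zero_vec (F := F) (m := m) (by omega)
  obtain ⟨c, hc0, hc1⟩ := hc
  exact transvec_pair_not_mem_normalizer (by rw [Fintype.card_sum, Fintype.card_fin]; omega)
    (by rw [Fintype.card_sum, Fintype.card_fin]; exact hn) hirr hcl hscal (sympDual_ne_zero hv) hv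
    (c₁ := 1) (c₂ := c) one_ne_zero hc0 (by rw [one_pow]; exact hc1.symm) (spTau_isTransvec v 1)
    (spTau_isTransvec v c) ⟨hle (spTau_mem v 1), hle (spTau_mem v c)⟩

end Cfsg.Agent.ClassicalMax
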